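import Cfsg.Agent.H81.SU3Pres.Model

/-!
# The group defined by the relations of `SU₃(q)`
-/

set_option autoImplicit false

namespace Cfsg.Agent.H81.SU3Pres

open SLPres
open scoped MatrixGroups

variable {F : Type*} [Field F] [Fintype F] {q : ℕ} [hq : Fact (Fintype.card F = q ^ 2)]

/-- The part of the data not involving the structure of the unipotent group. -/
structure Pre (X : Type) [Group X] (F : Type*) [Field F] [Fintype F] (q : ℕ)
    [hq : Fact (Fintype.card F = q ^ 2)] where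
  ζ : Fˣ
  hζ : orderOf ζ = q ^ 2 - 1
  δ : F
  hδ0 : δ ≠ 0
  hδ : δ ^ q = -δ
  b0 : F
  hb0 : Tz q 1 b0
  f : X →* Mdl F q
  u : X
  h : X
  t : X
  gen : Subgroup.closure ({u, h, t} : Set X) = ⊤
  fu : f u = uM 1 b0 hb0
  fh : f h = hM ζ
  hN : h ^ (q ^ 2 - 1) = 1
  ψ : SL(2, Fix F q) →* X
  fψ : ∀ g, f (ψ g) = slEmb δ hδ0 hδ g
  ψw : ψ H92.sw = t
  a0 : Fix F q
  ha0 : a0 ≠ 0
  hgen0 : ∀ c : Fix F q, c ≠ 0 → ∃ l : ℕ, c = a0 ^ l
  sq_gen : ∀ A : AddSubmonoid (Fix F q), (∀ i : ℕ, (a0 ^ 2) ^ i ∈ A) → ∀ x, x ∈ A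
  inv_gen : ∀ A : AddSubmonoid (Fix F q), (∀ i : ℕ, ((1 + a0)⁻¹) ^ i ∈ A) → ∀ x, x ∈ A
  mu_span : ∀ A : AddSubmonoid F, (∀ i : ℕ, mu q (ζ : F) ^ i ∈ A) → ∀ x, x ∈ A
  h1a : 1 + a0 ≠ 0
  e : ℕ
  ζe : (ζ : F) ^ e = a0
  e' : ℕ
  ζe' : (ζ : F) ^ e' = 1 + (a0 : F)
  ψh : ψ (hm a0 ha0) = h ^ e
  hz : h * ψ (H92.sx 1) * h⁻¹ = ψ (H92.sx ⟨nm q (ζ : F), nm_pq _⟩)
  tht : t * h * t⁻¹ = (h ^ q)⁻¹
  comb : ∃ z, cj u h e' = u * cj u h e * ψ (H92.sx z)
  cen1 : Commute u (ψ (H92.sx 1))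
  cen2 : Commute u (ψ (H92.sx (1 / a0 ^ 2)))
  cen3 : Commute u (ψ (H92.sx (1 / a0)))
  cen4 : Commute u (ψ (H92.sx (1 / (1 + a0))))

namespace Pre

variable {X : Type} [Group X] (D : Pre X F q)

/-- The root elements of the embedded `SL₂`. -/
def Z (s : Fix F q) : X := D.ψ (H92.sx s)

theorem Z_add (s s' : Fix F q) : D.Z (s + s') = D.Z s * D.Z s' := by
  simp [Z, H92.sx_add]

theorem Z_zero : D.Z 0 = 1 := by simp [Z]

theorem Z_neg (s : Fix F q) : D.Z (-s) = (D.Z s)⁻¹ := by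
  rw [← mul_eq_one_iff_eq_inv, ← Z_add, neg_add_cancel, Z_zero]

theorem fZ (s : Fix F q) : D.f (D.Z s) = uM 0 (D.δ * s) (Tz.trace_zero D.hδ s) := by
  rw [Z, D.fψ, slEmb_sx]

theorem exists_pow (c : Fˣ) : ∃ i : ℕ, D.ζ ^ i = c := by
  classical
  have hz : Subgroup.zpowers D.ζ = ⊤ := by
    refine Subgroup.eq_top_of_card_eq _ ?_
    rw [Nat.card_zpowers, D.hζ, Nat.card_eq_fintype_card, Fintype.card_units, hq.out]
  exact mem_powers_iff_mem_zpowers.2 (hz ▸ Subgroup.mem_top c)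

/-- The torus. -/
noncomputable def H : Fˣ →* X :=
  monoidHomOfForallMemZpowers (g := D.ζ) (g' := D.h)
    (fun c => by obtain ⟨i, rfl⟩ := D.exists_pow c; exact Subgroup.npow_mem_zpowers _ _)
    (D.hζ ▸ orderOf_dvd_of_pow_eq_one D.hN)

theorem H_gen : D.H D.ζ = D.h := monoidHomOfForallMemZpowers_apply_gen _ _

theorem fH (c : Fˣ) : D.f (D.H c) = hM c := by
  obtain ⟨i, rfl⟩ := D.exists_pow c
  rw [map_pow, map_pow, map_pow, H_gen, D.fh]

theorem Hψ (a : Fix F q) (ha : a ≠ 0) :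
    D.ψ (hm a ha) = D.H (Units.mk0 (a : F) (by simpa using ha)) := by
  obtain ⟨l, rfl⟩ := D.hgen0 a ha
  have e1 : hm (D.a0 ^ l) ha = hm D.a0 D.ha0 ^ l := by rw [hm_pow]
  have e2 : Units.mk0 ((D.a0 ^ l : Fix F q) : F) (by simpa using ha) = (D.ζ ^ D.e) ^ l :=
    Units.ext (by simp [D.ζe])
  rw [e1, e2, map_pow, map_pow, map_pow, H_gen, D.ψh]

theorem hZ (s : Fix F q) : D.h * D.Z s * D.h⁻¹ = D.Z (⟨nm q (D.ζ : F), nm_pq _⟩ * s) := by
  generalize hN : (⟨nm q (D.ζ : F), nm_pq _⟩ : Fix F q) = N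
  let A : AddSubmonoid (Fix F q) :=
    { carrier := {s | D.h * D.Z s * D.h⁻¹ = D.Z (N * s)}
      zero_mem' := by simp [D.Z_zero]
      add_mem' := fun {s s'} hs hs' => by
        simp only [Set.mem_setOf_eq] at hs hs' ⊢
        rw [mul_add, D.Z_add, D.Z_add, ← hs, ← hs']; group }
  refine D.sq_gen A (fun i => ?_) s
  show D.h * D.Z ((D.a0 ^ 2) ^ i) * D.h⁻¹ = D.Z (N * (D.a0 ^ 2) ^ i)
  have hc : ∀ c : Fix F q, D.Z ((D.a0 ^ 2) ^ i * c) = (D.h ^ D.e) ^ i * D.Z c * ((D.h ^ D.e) ^ i)⁻¹ := by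
    intro c
    rw [← D.ψh, ← map_pow, ← map_inv]
    simp only [Z, ← map_mul]
    rw [(img_phi D.a0 D.ha0).conj_pow i c]
  have h1 := hc 1
  rw [mul_one] at h1
  rw [h1, mul_comm N, hc N, ← hN]
  have hz := D.hz
  show _ = _ * D.ψ _ * _
  rw [← hz]
  simp only [Z]
  group

theorem HZ (c : Fˣ) (s : Fix F q) :
    D.H c * D.Z s * (D.H c)⁻¹ = D.Z (⟨nm q (c : F), nm_pq _⟩ * s) := by
  obtain ⟨i, rfl⟩ := D.exists_pow c
  induction i generalizing s with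
  | zero =>
    have : (⟨nm q ((D.ζ ^ 0 : Fˣ) : F), nm_pq _⟩ : Fix F q) = 1 := Subtype.ext (by simp [nm_one])
    rw [this]; simp
  | succ i ih =>
    have : (⟨nm q ((D.ζ ^ (i + 1) : Fˣ) : F), nm_pq _⟩ : Fix F q) * s =
        ⟨nm q ((D.ζ ^ i : Fˣ) : F), nm_pq _⟩ * (⟨nm q (D.ζ : F), nm_pq _⟩ * s) := by
      rw [← mul_assoc]; congr 1
      exact Subtype.ext (by simp [pow_succ, nm_mul])
    rw [this, ← ih, ← D.hZ, pow_succ, map_mul, H_gen]
    group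

theorem HZ' (c : Fˣ) (s : Fix F q) : ∃ s', D.H c * D.Z s = D.Z s' * D.H c :=
  ⟨⟨nm q (c : F), nm_pq _⟩ * s, by rw [← D.HZ, inv_mul_cancel_right]⟩

theorem central (s : Fix F q) : Commute D.u (D.Z s) := by
  let A : AddSubmonoid (Fix F q) :=
    { carrier := {s | Commute D.u (D.Z s)}
      zero_mem' := by simp [D.Z_zero]
      add_mem' := fun {s s'} hs hs' => by
        simp only [Set.mem_setOf_eq] at hs hs' ⊢
        rw [D.Z_add]; exact hs.mul_right hs' }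
  have hA : ∀ s, s ∈ A ↔ Commute D.u (D.Z s) := fun s => Iff.rfl
  have hneg : ∀ s, s ∈ A → -s ∈ A := fun s hs => by
    rw [hA, D.Z_neg]; exact ((hA s).1 hs).inv_right
  have hsub : ∀ s s', s ∈ A → s' ∈ A → s - s' ∈ A := fun s s' hs hs' => by
    rw [sub_eq_add_neg]; exact add_mem hs (hneg _ hs')
  set a := D.a0 with ha
  have ha0 : a ≠ 0 := D.ha0
  have ha1 : 1 + a ≠ 0 := D.h1a
  set v := (1 + a)⁻¹ with hv
  have rule : ∀ s, s ∈ A → s / a ^ 2 ∈ A → s * v ^ 2 ∈ A := by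
    intro s hs hs'
    rw [hA] at hs hs' ⊢
    obtain ⟨z, hz⟩ := D.comb
    have conj : ∀ (i : ℕ) (c : Fix F q), (D.ζ : F) ^ i = c → ∀ r, Commute D.u (D.Z r) →
        Commute (cj D.u D.h i) (D.Z (c ^ 2 * r)) := by
      intro i c hc r hr
      have : D.Z (c ^ 2 * r) = D.h ^ i * D.Z r * (D.h ^ i)⁻¹ := by
        rw [show D.h ^ i = D.H (D.ζ ^ i) by rw [map_pow, H_gen], D.HZ]
        congr 2
        exact Subtype.ext (by simp [hc, nm_fix (fix_pq c), pow_two])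
      rw [this]
      exact hr.map (MulAut.conj (D.h ^ i)).toMonoidHom
    have h1 : Commute (cj D.u D.h D.e) (D.Z s) := by
      have := conj D.e a D.ζe (s / a ^ 2) hs'
      rwa [mul_div_cancel₀ _ (pow_ne_zero _ ha0)] at this
    have h2 : Commute (cj D.u D.h D.e') (D.Z s) := by
      rw [hz]
      refine (hs.mul_left h1).mul_left ?_
      show Commute (D.Z z) (D.Z s)
      show D.Z z * D.Z s = D.Z s * D.Z z
      rw [← D.Z_add, ← D.Z_add, add_comm]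
    have e : (D.h ^ D.e')⁻¹ * D.Z s * D.h ^ D.e' = D.Z (s * v ^ 2) := by
      have := D.HZ (D.ζ ^ D.e') (s * v ^ 2)
      rw [map_pow, H_gen] at this
      have e2 : (⟨nm q ((D.ζ ^ D.e' : Fˣ) : F), nm_pq _⟩ : Fix F q) = (1 + a) ^ 2 := by
        refine Subtype.ext ?_
        show nm q ((D.ζ ^ D.e' : Fˣ) : F) = (((1 + a) ^ 2 : Fix F q) : F)
        rw [Units.val_pow_eq_pow_val, D.ζe', nm_fix]
        · rw [ha]; push_cast; ring
        · rw [pq_add, one_pow, fix_pq]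
      rw [e2, show (1 + a) ^ 2 * (s * v ^ 2) = s by rw [hv]; field_simp] at this
      rw [← this]; group
    rw [← e]
    have hu : D.u = (D.h ^ D.e')⁻¹ * cj D.u D.h D.e' * D.h ^ D.e' := by simp only [cj]; group
    rw [hu]
    have := h2.map (MulAut.conj (D.h ^ D.e')⁻¹).toMonoidHom
    simp only [MulEquiv.coe_toMonoidHom, MulAut.conj_apply, inv_inv] at this
    exact this
  have hall : ∀ n : ℕ, v ^ n ∈ A ∧ v ^ n / a ∈ A ∧ v ^ n / a ^ 2 ∈ A := by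
    have step : ∀ n, v ^ n / a ∈ A → v ^ n / a ^ 2 ∈ A → v ^ (n + 1) ∈ A →
        v ^ (n + 1) / a ∈ A ∧ v ^ (n + 1) / a ^ 2 ∈ A := by
      intro n hn hn2 hn1
      have e1 : v ^ (n + 1) / a = v ^ n / a - v ^ (n + 1) := by
        rw [pow_succ, hv]; field_simp; ring
      have m1 : v ^ (n + 1) / a ∈ A := e1 ▸ hsub _ _ hn hn1
      have e2 : v ^ (n + 1) / a ^ 2 = v ^ n / a ^ 2 - v ^ (n + 1) / a := by
        rw [pow_succ, hv]; field_simp; ring
      exact ⟨m1, e2 ▸ hsub _ _ hn2 m1⟩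
    have h0 : v ^ 0 ∈ A ∧ v ^ 0 / a ∈ A ∧ v ^ 0 / a ^ 2 ∈ A :=
      ⟨(hA _).2 (by simpa [Z] using D.cen1), (hA _).2 (by simpa [Z] using D.cen3),
        (hA _).2 (by simpa [Z] using D.cen2)⟩
    intro n
    induction n using Nat.strong_induction_on with
    | _ n ih =>
      rcases n with _ | _ | n
      · exact h0
      · have h1 : v ^ 1 ∈ A := (hA _).2 (by simpa [Z, hv] using D.cen4)
        exact ⟨h1, step 0 h0.2.1 h0.2.2 h1⟩
      · obtain ⟨p1, p2, p3⟩ := ih n (by omega)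
        have h2 : v ^ (n + 2) ∈ A := by rw [pow_add]; exact rule _ p1 p3
        exact ⟨h2, step (n + 1) (ih (n + 1) (by omega)).2.1 (ih (n + 1) (by omega)).2.2 h2⟩
  exact D.inv_gen A (fun n => (hall n).1) s

/-- The image of the root subgroup. -/
def Zs : Subgroup X where
  carrier := Set.range D.Z
  one_mem' := ⟨0, D.Z_zero⟩
  mul_mem' := by rintro _ _ ⟨s, rfl⟩ ⟨s', rfl⟩; exact ⟨_, D.Z_add s s'⟩
  inv_mem' := by rintro _ ⟨s, rfl⟩; exact ⟨_, D.Z_neg s⟩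

theorem mem_Zs {x : X} : x ∈ D.Zs ↔ ∃ s, D.Z s = x := Iff.rfl

theorem u_normalizes : D.u ∈ Subgroup.normalizer (D.Zs : Set X) := by
  rw [Subgroup.mem_normalizer_iff]
  intro x
  constructor
  · rintro ⟨s, rfl⟩
    exact ⟨s, by rw [(D.central s).eq, mul_inv_cancel_right]⟩
  · rintro ⟨s, hs⟩
    exact ⟨s, mul_left_cancel (a := D.u) (by rw [(D.central s).eq, hs, inv_mul_cancel_right])⟩

theorem h_normalizes : D.h ∈ Subgroup.normalizer (D.Zs : Set X) := by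
  rw [Subgroup.mem_normalizer_iff]
  intro x
  have hn : (⟨nm q (D.ζ : F), nm_pq _⟩ : Fix F q) ≠ 0 := fun e =>
    nm_ne (q := q) D.ζ.ne_zero (congrArg Subtype.val e)
  constructor
  · rintro ⟨s, rfl⟩
    exact ⟨_, (D.hZ s).symm⟩
  · rintro ⟨s, hs⟩
    refine ⟨(⟨nm q (D.ζ : F), nm_pq _⟩ : Fix F q)⁻¹ * s, mul_left_cancel (a := D.h) ?_⟩
    apply mul_right_cancel (b := D.h⁻¹)
    rw [D.hZ, ← mul_assoc _ _ s, mul_inv_cancel₀ hn, one_mul, hs]

end Pre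

/-- The full data: lifts of the unipotent group and the seeds of the Bruhat relations. -/
structure Full (X : Type) [Group X] (F : Type*) [Field F] [Fintype F] (q : ℕ)
    [hq : Fact (Fintype.card F = q ^ 2)] extends Pre X F q where
  L : F → X
  L0 : ∃ s, L 0 = toPre.Z s
  Ladd : ∀ a a', ∃ s, L a * L a' = L (a + a') * toPre.Z s
  Lone : ∃ s, toPre.u = L 1 * toPre.Z s
  Lconj : ∀ a, ∃ s, toPre.h * L a * (toPre.h)⁻¹ = L (mu q (toPre.ζ : F) * a) * toPre.Z s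

namespace Full

variable {X : Type} [Group X] (D : Full X F q)

theorem fL (a : F) : ∃ (b : F) (hb : Tz q a b), D.f (D.L a) = uM a b hb := by
  let A : AddSubmonoid F :=
    { carrier := {a | ∃ (b : F) (hb : Tz q a b), D.f (D.L a) = uM a b hb}
      zero_mem' := by
        obtain ⟨s, hs⟩ := D.L0
        exact ⟨_, _, by rw [hs, D.fZ]⟩
      add_mem' := by
        rintro a a' ⟨b, hb, e⟩ ⟨b', hb', e'⟩
        obtain ⟨s, hs⟩ := D.Ladd a a'
        rw [← mul_inv_eq_iff_eq_mul, ← D.Z_neg] at hs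
        refine ⟨_, ((hb.mul hb').mul (Tz.trace_zero D.hδ (-s))) |> fun h => by rwa [add_zero] at h, ?_⟩
        rw [← hs, map_mul, map_mul, e, e', D.fZ, uM_mul, uM_mul]
        exact uM_eq (add_zero _) rfl }
  refine D.mu_span A (fun i => ?_) a
  induction i with
  | zero =>
    rw [pow_zero]
    obtain ⟨s, hs⟩ := D.Lone
    rw [← mul_inv_eq_iff_eq_mul, ← D.Z_neg] at hs
    refine ⟨_, (D.hb0.mul (Tz.trace_zero D.hδ (-s))) |> fun h => by
      rw [add_zero] at h; exact h, ?_⟩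
    rw [← hs, map_mul, D.fu, D.fZ, uM_mul]
    exact uM_eq (add_zero _) rfl
  | succ i ih =>
    obtain ⟨b, hb, e⟩ := ih
    rw [pow_succ']
    obtain ⟨s, hs⟩ := D.Lconj (mu q (D.ζ : F) ^ i)
    rw [← mul_inv_eq_iff_eq_mul, ← D.Z_neg] at hs
    refine ⟨_, ((hb.conj D.ζ.ne_zero).mul (Tz.trace_zero D.hδ (-s))) |> fun h => by
      rw [add_zero] at h; exact h, ?_⟩
    rw [← hs, map_mul, map_mul, map_mul, map_inv, D.fh, e, hM_uM, D.fZ, uM_mul]
    exact uM_eq (add_zero _) rfl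

/-- Elements of the unipotent group. -/
def InU (x : X) : Prop := ∃ a s, x = D.L a * D.Z s

/-- Elements of the Borel subgroup. -/
def InB (x : X) : Prop := ∃ a s c, x = D.L a * D.Z s * D.H c

theorem InU.inB {x : X} (hx : D.InU x) : D.InB x := by
  obtain ⟨a, s, rfl⟩ := hx; exact ⟨a, s, 1, by simp⟩

theorem L_Z (a : F) (s : Fix F q) : Commute (D.L a) (D.Z s) := by
  let A : AddSubmonoid F :=
    { carrier := {a | ∀ s, Commute (D.L a) (D.Z s)}
      zero_mem' := by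
        intro s
        obtain ⟨s0, hs⟩ := D.L0
        rw [hs]
        show D.Z s0 * D.Z s = D.Z s * D.Z s0
        rw [← D.Z_add, ← D.Z_add, add_comm]
      add_mem' := by
        intro a a' ha ha' s
        obtain ⟨s0, hs⟩ := D.Ladd a a'
        rw [← mul_inv_eq_iff_eq_mul, ← D.Z_neg] at hs
        rw [← hs]
        refine ((ha s).mul_left (ha' s)).mul_left ?_
        show D.Z (-s0) * D.Z s = D.Z s * D.Z (-s0)
        rw [← D.Z_add, ← D.Z_add, add_comm] }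
  refine D.mu_span A (fun i => ?_) a s
  have hZZ : ∀ s s' : Fix F q, Commute (D.Z s) (D.Z s') := fun s s' => by
    show _ = _; rw [← D.Z_add, ← D.Z_add, add_comm]
  induction i with
  | zero =>
    intro s
    obtain ⟨s0, hs⟩ := D.Lone
    rw [← mul_inv_eq_iff_eq_mul, ← D.Z_neg] at hs
    rw [pow_zero, ← hs]
    exact (D.central s).mul_left (hZZ _ _)
  | succ i ih =>
    intro s
    obtain ⟨s0, hs⟩ := D.Lconj (mu q (D.ζ : F) ^ i)
    rw [← mul_inv_eq_iff_eq_mul, ← D.Z_neg, ← pow_succ'] at hs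
    rw [← hs]
    refine Commute.mul_left ?_ (hZZ _ _)
    have hn : (⟨nm q (D.ζ : F), nm_pq _⟩ : Fix F q) ≠ 0 := fun e =>
      nm_ne (q := q) D.ζ.ne_zero (congrArg Subtype.val e)
    have := (ih ((⟨nm q (D.ζ : F), nm_pq _⟩ : Fix F q)⁻¹ * s)).map (MulAut.conj D.h).toMonoidHom
    simp only [MulEquiv.coe_toMonoidHom, MulAut.conj_apply, D.hZ] at this
    rwa [← mul_assoc _ _ s, mul_inv_cancel₀ hn, one_mul] at this

theorem InU.mul {x y : X} (hx : D.InU x) (hy : D.InU y) : D.InU (x * y) := by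
  obtain ⟨a, s, rfl⟩ := hx
  obtain ⟨a', s', rfl⟩ := hy
  obtain ⟨s0, hs⟩ := D.Ladd a a'
  refine ⟨a + a', s0 + (s + s'), ?_⟩
  rw [D.Z_add s0, D.Z_add s, ← mul_assoc (D.L (a + a')), ← hs, mul_assoc (D.L a) (D.Z s),
    ← mul_assoc (D.Z s), ← (D.L_Z a' s).eq]
  group

theorem InU.conj {x : X} (hx : D.InU x) (c : Fˣ) : D.InU (D.H c * x * (D.H c)⁻¹) := by
  obtain ⟨i, rfl⟩ := D.exists_pow c
  induction i with
  | zero => simpa using hx
  | succ i ih =>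
    obtain ⟨a, s, e⟩ := ih
    obtain ⟨s0, hs⟩ := D.Lconj a
    refine ⟨mu q (D.ζ : F) * a, s0 + (⟨nm q (D.ζ : F), nm_pq _⟩ * s), ?_⟩
    rw [D.Z_add, ← D.hZ, ← mul_assoc, ← hs, pow_succ', map_mul, D.H_gen, mul_inv_rev]
    calc D.h * D.H (D.ζ ^ i) * x * ((D.H (D.ζ ^ i))⁻¹ * D.h⁻¹)
        = D.h * (D.H (D.ζ ^ i) * x * (D.H (D.ζ ^ i))⁻¹) * D.h⁻¹ := by group
      _ = _ := by rw [e]; group

theorem InB.decomp {x : X} (hx : D.InB x) : ∃ y c, D.InU y ∧ x = y * D.H c := by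
  obtain ⟨a, s, c, rfl⟩ := hx; exact ⟨_, c, ⟨a, s, rfl⟩, rfl⟩

theorem InU.mul_H {x : X} (hx : D.InU x) (c : Fˣ) : D.InB (x * D.H c) := by
  obtain ⟨a, s, rfl⟩ := hx; exact ⟨a, s, c, rfl⟩

theorem InB.mul {x y : X} (hx : D.InB x) (hy : D.InB y) : D.InB (x * y) := by
  obtain ⟨x, c, hxu, rfl⟩ := InB.decomp D hx
  obtain ⟨y, c', hyu, rfl⟩ := InB.decomp D hy
  rw [show x * D.H c * (y * D.H c') = (x * (D.H c * y * (D.H c)⁻¹)) * D.H (c * c') by rw [map_mul]; group]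
  exact InU.mul_H D (InU.mul D hxu (InU.conj D hyu c)) _

theorem inU_L (a : F) : D.InU (D.L a) := ⟨a, 0, by rw [D.Z_zero, mul_one]⟩

theorem inU_Z (s : Fix F q) : D.InU (D.Z s) := by
  obtain ⟨s0, hs⟩ := D.L0
  exact ⟨0, -s0 + s, by rw [hs, ← D.Z_add, add_neg_cancel_left]⟩

theorem inU_one : D.InU 1 := D.Z_zero ▸ D.inU_Z 0

theorem inU_u : D.InU D.u := by
  obtain ⟨s, hs⟩ := D.Lone; exact ⟨1, s, hs⟩

theorem inB_H (c : Fˣ) : D.InB (D.H c) := by simpa using InU.mul_H D D.inU_one c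

theorem fU {x : X} (hx : D.InU x) : ∃ (a b : F) (h : Tz q a b), D.f x = uM a b h := by
  obtain ⟨a, s, rfl⟩ := hx
  obtain ⟨b, hb, e⟩ := D.fL a
  exact ⟨_, _, _, by rw [map_mul, e, D.fZ, uM_mul]⟩

theorem eq_of_f {x y : X} (hx : D.InB x) (hy : D.InB y) (e : D.f x = D.f y) : x = y := by
  obtain ⟨a, s, c, rfl⟩ := hx
  obtain ⟨a', s', c', rfl⟩ := hy
  obtain ⟨b, hb, ea⟩ := D.fL a
  obtain ⟨b', hb', ea'⟩ := D.fL a'
  simp only [map_mul, ea, ea', D.fZ, D.fH, uM_mul] at e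
  obtain ⟨h1, h2, h3⟩ := borel_unique e
  rw [add_zero, add_zero] at h1
  subst h1 h3
  obtain ⟨-, hbb⟩ := uM_inj (ea.symm.trans ea')
  subst hbb
  have : (s : F) = s' := mul_left_cancel₀ D.hδ0 (by linear_combination h2)
  rw [Subtype.ext this]

theorem exists_U (a b : F) (h : Tz q a b) : ∃ x, D.InU x ∧ D.f x = uM a b h := by
  obtain ⟨b', hb', e⟩ := D.fL a
  have hs : ((b - b') / D.δ) ^ q = (b - b') / D.δ := by
    rw [div_pow, pq_sub, D.hδ, div_neg, ← neg_div]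
    congr 1
    unfold Tz at h hb'
    linear_combination hb' - h
  refine ⟨D.L a * D.Z ⟨_, hs⟩, ⟨a, _, rfl⟩, ?_⟩
  rw [map_mul, e, D.fZ, uM_mul]
  refine uM_eq (add_zero a) ?_
  have := D.hδ0
  field_simp
  ring

open Classical in
/-- The unipotent element with given parameters. -/
noncomputable def U (a b : F) : X := if h : Tz q a b then (D.exists_U a b h).choose else 1

theorem inU_U (a b : F) : D.InU (D.U a b) := by
  unfold U
  split_ifs with h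
  · exact (D.exists_U a b h).choose_spec.1
  · exact D.inU_one

theorem fUab {a b : F} (h : Tz q a b) : D.f (D.U a b) = uM a b h := by
  unfold U
  rw [dif_pos h]
  exact (D.exists_U a b h).choose_spec.2

theorem U_eq {x : X} {a b : F} (hx : D.InU x) (h : Tz q a b) (e : D.f x = uM a b h) : x = D.U a b :=
  D.eq_of_f (InU.inB D hx) (InU.inB D (D.inU_U a b)) (e.trans (D.fUab h).symm)

theorem inU_inv {x : X} (hx : D.InU x) : D.InU x⁻¹ := by
  obtain ⟨a, b, h, e⟩ := D.fU hx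
  have hy := D.inU_U (-a) (b ^ q)
  have : x * D.U (-a) (b ^ q) = 1 := by
    refine D.eq_of_f (InU.inB D (InU.mul D hx hy)) (InU.inB D D.inU_one) ?_
    rw [map_mul, map_one, e, D.fUab h.neg, ← uM_inv a b h, mul_inv_cancel]
  rwa [inv_eq_of_mul_eq_one_right this]

theorem t_H (c : Fˣ) : D.t * D.H c =
    D.H (Units.mk0 ((c : F) ^ q) (pow_ne_zero _ c.ne_zero))⁻¹ * D.t := by
  obtain ⟨i, rfl⟩ := D.exists_pow c
  rw [← mul_inv_eq_iff_eq_mul]
  have : (Units.mk0 (((D.ζ ^ i : Fˣ) : F) ^ q) (pow_ne_zero _ (Units.ne_zero _)))⁻¹ = ((D.ζ ^ q)⁻¹) ^ i := by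
    rw [inv_pow]; congr 1
    exact Units.ext (by simp [← pow_mul, mul_comm])
  rw [this, map_pow, map_pow, map_inv, map_pow, D.H_gen, ← D.tht, conj_pow]

/-- The parameter of the Weyl element. -/
def dW : Fˣ := Units.mk0 (-D.δ) (neg_ne_zero.2 D.hδ0)

/-- The Weyl element. -/
noncomputable def W : X := D.t * D.H D.dW

theorem fW : D.f D.W = wM := by
  rw [W, map_mul, ← D.ψw, D.fψ, slEmb_sw, D.fH, dW, map_inv, inv_mul_cancel_right]

theorem W_H (c : Fˣ) : D.W * D.H c =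
    D.H (Units.mk0 ((c : F) ^ q) (pow_ne_zero _ c.ne_zero))⁻¹ * D.W := by
  rw [W, mul_assoc, ← map_mul, mul_comm D.dW, map_mul, ← mul_assoc, D.t_H, mul_assoc]

theorem W_sq : D.W * D.W = 1 := by
  have htt : D.t * D.t = D.H (Units.mk0 (((-1 : Fix F q)) : F) (by simp)) := by
    rw [← D.ψw, ← map_mul, img_tt, D.Hψ]
  rw [W, mul_assoc, ← mul_assoc (D.H D.dW) D.t]
  obtain ⟨c, hc, hc'⟩ : ∃ c : Fˣ, (c : F) = 1 / D.δ ∧ D.H D.dW * D.t = D.t * D.H c := by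
    refine ⟨Units.mk0 (1 / D.δ) (by simp [D.hδ0]), rfl, ?_⟩
    rw [D.t_H]
    congr 2
    refine Units.ext ?_
    rw [Units.val_inv_eq_inv_val, Units.val_mk0, Units.val_mk0]
    simp [dW, D.hδ]
  rw [hc', mul_assoc, ← map_mul, ← mul_assoc, htt, ← map_mul]
  rw [← map_one D.H]
  congr 1
  refine Units.ext ?_
  have := D.hδ0
  simp [dW, hc]
  exact inv_mul_cancel₀ this

/-- The big cell. -/
def Cell (x : X) : Prop := ∃ y z, D.InB y ∧ D.InU z ∧ x = y * D.W * z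

theorem Cell.mul_left {x b : X} (hb : D.InB b) (hx : D.Cell x) : D.Cell (b * x) := by
  obtain ⟨y, z, hy, hz, rfl⟩ := hx
  exact ⟨b * y, z, InB.mul D hb hy, hz, by group⟩

theorem Cell.mul_U {x z' : X} (hz' : D.InU z') (hx : D.Cell x) : D.Cell (x * z') := by
  obtain ⟨y, z, hy, hz, rfl⟩ := hx
  exact ⟨y, z * z', hy, InU.mul D hz hz', by group⟩

theorem Cell.mul_H {x : X} (c : Fˣ) (hx : D.Cell x) : D.Cell (x * D.H c) := by
  obtain ⟨y, z, hy, hz, rfl⟩ := hx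
  refine ⟨y * D.H (Units.mk0 ((c : F) ^ q) (pow_ne_zero _ c.ne_zero))⁻¹,
    (D.H c⁻¹) * z * (D.H c⁻¹)⁻¹, InB.mul D hy (D.inB_H _), InU.conj D hz _, ?_⟩
  rw [mul_assoc y _ D.W, ← D.W_H, map_inv]
  group

theorem Cell.conj {x : X} (c : Fˣ) (hx : D.Cell (D.W * x * D.W)) :
    D.Cell (D.W * (D.H c * x * (D.H c)⁻¹) * D.W) := by
  obtain ⟨c', hc'⟩ : ∃ c', (D.H c)⁻¹ * D.W = D.W * D.H c' := by
    refine ⟨Units.mk0 ((c : F) ^ q) (pow_ne_zero _ c.ne_zero), ?_⟩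
    rw [D.W_H, ← map_inv]
    congr 2
    refine Units.ext ?_
    rw [Units.val_inv_eq_inv_val, Units.val_inv_eq_inv_val, Units.val_mk0, Units.val_mk0, pq_pq]
  have : D.W * (D.H c * x * (D.H c)⁻¹) * D.W =
      D.H (Units.mk0 ((c : F) ^ q) (pow_ne_zero _ c.ne_zero))⁻¹ * ((D.W * x * D.W) * D.H c') := by
    rw [← mul_assoc D.W (D.H c * x), ← mul_assoc D.W (D.H c), D.W_H, mul_assoc _ (D.H c)⁻¹, hc']
    group
  rw [this]
  exact Cell.mul_left D (D.inB_H _) (Cell.mul_H D c' hx)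

theorem Cell.exact {a b : F} (h : Tz q a b) (hb : b ≠ 0) (hx : D.Cell (D.W * D.U a b * D.W)) :
    D.W * D.U a b * D.W = D.U (-(a / b)) (1 / b) * D.H (Units.mk0 (b ^ q) (pow_ne_zero _ hb))⁻¹ * D.W *
      D.U (-(a / b ^ q)) (1 / b) := by
  obtain ⟨y, z, hy, hz, e⟩ := hx
  obtain ⟨y, c, hyu, rfl⟩ := InB.decomp D hy
  obtain ⟨a1, b1, h1, e1⟩ := D.fU hyu
  obtain ⟨a2, b2, h2, e2⟩ := D.fU hz
  have := congrArg D.f e
  simp only [map_mul, D.fW, D.fUab h, e1, e2, D.fH] at this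
  rw [cell_id a b h hb] at this
  obtain ⟨r1, r2, r3, r4, r5⟩ := cell_unique this
  subst r1 r2 r3 r4 r5
  rw [e, D.U_eq hyu h1 e1, D.U_eq hz h2 e2]

theorem cell_mul {a b a' b' : F} (h : Tz q a b) (h' : Tz q a' b') (hb : b ≠ 0) (hb' : b' ≠ 0)
    (hx : D.Cell (D.W * D.U a b * D.W)) (hx' : D.Cell (D.W * D.U a' b' * D.W))
    (hm : D.Cell (D.W * (D.U (-(a / b ^ q)) (1 / b) * D.U (-(a' / b')) (1 / b')) * D.W)) :
    D.Cell (D.W * (D.U a b * D.U a' b') * D.W) := by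
  have e : D.W * (D.U a b * D.U a' b') * D.W = (D.W * D.U a b * D.W) * (D.W * D.U a' b' * D.W) := by
    calc D.W * (D.U a b * D.U a' b') * D.W = D.W * D.U a b * 1 * D.U a' b' * D.W := by group
      _ = _ := by rw [← D.W_sq]; group
  rw [e, Cell.exact D h hb hx, Cell.exact D h' hb' hx']
  set c1 := (Units.mk0 (b ^ q) (pow_ne_zero _ hb))⁻¹
  set c3 := (Units.mk0 (b' ^ q) (pow_ne_zero _ hb'))⁻¹
  obtain ⟨c', hc'⟩ : ∃ c', D.H c3 * D.W = D.W * D.H c' := by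
    refine ⟨(Units.mk0 ((c3 : F) ^ q) (pow_ne_zero _ c3.ne_zero))⁻¹, ?_⟩
    calc D.H c3 * D.W = D.W * (D.W * D.H c3) * D.W := by rw [← mul_assoc D.W, D.W_sq, one_mul]
      _ = D.W * (D.H (Units.mk0 ((c3 : F) ^ q) (pow_ne_zero _ c3.ne_zero))⁻¹ * (D.W * D.W)) := by
          rw [D.W_H]; group
      _ = _ := by rw [D.W_sq, mul_one]
  rw [show D.U (-(a / b)) (1 / b) * D.H c1 * D.W * D.U (-(a / b ^ q)) (1 / b) *
      (D.U (-(a' / b')) (1 / b') * D.H c3 * D.W * D.U (-(a' / b' ^ q)) (1 / b')) =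
      (D.U (-(a / b)) (1 / b) * D.H c1) * (D.W * (D.U (-(a / b ^ q)) (1 / b) * D.U (-(a' / b')) (1 / b')) *
        (D.H c3 * D.W)) * D.U (-(a' / b' ^ q)) (1 / b') by group, hc', ← mul_assoc _ D.W (D.H c')]
  exact Cell.mul_U D (D.inU_U _ _) (Cell.mul_left D (InU.mul_H D (D.inU_U _ _) _) (Cell.mul_H D c' hm))

/-- The cell condition at a node. -/
def Node (ρ a : F) : Prop := D.Cell (D.W * D.U a (a * a ^ q / (ρ - 1)) * D.W)

omit D in
theorem node_Tz {ρ a : F} (hρ : ρ * ρ ^ q = 1) (hρ1 : ρ ≠ 1) : Tz q a (a * a ^ q / (ρ - 1)) := by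
  unfold Tz
  have h0 : ρ - 1 ≠ 0 := sub_ne_zero.2 hρ1
  have h1 : ρ ^ q - 1 ≠ 0 := sub_ne_zero.2 fun e => hρ1 (by
    rw [← pq_pq (q := q) ρ, e, one_pow])
  rw [div_pow, mul_pow, pq_pq, pq_sub, one_pow]
  field_simp
  linear_combination a * a ^ q * hρ

theorem node_conj {ρ a : F} (hρ : ρ * ρ ^ q = 1) (hρ1 : ρ ≠ 1) (c : Fˣ) (hn : D.Node ρ a) :
    D.Node ρ (mu q (c : F) * a) := by
  have h := node_Tz (q := q) (a := a) hρ hρ1
  have e : D.H c * D.U a (a * a ^ q / (ρ - 1)) * (D.H c)⁻¹ =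
      D.U (mu q (c : F) * a) (mu q (c : F) * a * (mu q (c : F) * a) ^ q / (ρ - 1)) := by
    refine D.U_eq (InU.conj D (D.inU_U _ _) c) (node_Tz hρ hρ1) ?_
    rw [map_mul, map_mul, map_inv, D.fH, D.fUab h, hM_uM]
    refine uM_eq rfl ?_
    have : mu q (c : F) * mu q (c : F) ^ q = nm q (c : F) := by
      unfold mu nm
      rw [div_pow, mul_pow, pq_pq]
      have := c.ne_zero
      have : (c : F) ^ q ≠ 0 := pow_ne_zero _ this
      field_simp
    rw [← this, mul_pow]; ring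
  unfold Node
  rw [← e]
  exact Cell.conj D c hn

theorem cell_Z {s : Fix F q} (hs : s ≠ 0) : D.Cell (D.W * D.Z s * D.W) := by
  obtain ⟨c', hc'⟩ : ∃ c', D.H D.dW * D.t = D.t * D.H c' := by
    refine ⟨(Units.mk0 ((D.dW : F) ^ q) (pow_ne_zero _ D.dW.ne_zero))⁻¹, ?_⟩
    rw [D.t_H]
    congr 2
    refine Units.ext ?_
    simp [inv_pow, pq_pq]
  obtain ⟨s', hs2⟩ := D.HZ' D.dW s
  have hs'0 : s' ≠ 0 := by
    rintro rfl
    rw [D.Z_zero, one_mul] at hs2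
    have := D.eq_of_f (InB.mul D (D.inB_H _) (InU.inB D (D.inU_Z s))) (D.inB_H D.dW) (congrArg D.f hs2)
    have e := congrArg D.f (mul_eq_left.1 this)
    rw [D.fZ, map_one, ← uM_zero] at e
    exact hs (Subtype.ext ((mul_eq_zero.1 (uM_inj e).2).resolve_left D.hδ0))
  have e : D.W * D.Z s * D.W = (D.t * D.Z s' * D.t) * D.H (c' * D.dW) := by
    rw [W, mul_assoc D.t (D.H D.dW), hs2, map_mul]
    calc D.t * (D.Z s' * D.H D.dW) * (D.t * D.H D.dW)
        = D.t * D.Z s' * (D.H D.dW * D.t) * D.H D.dW := by group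
      _ = _ := by rw [hc']; group
  rw [e]
  have hs'' : (-1 / s' : Fix F q) ≠ 0 := div_ne_zero (neg_ne_zero.2 one_ne_zero) hs'0
  have id3 : (H92.sw : SL(2, Fix F q)) * H92.sx s' * H92.sw =
      H92.sx (-1 / s') * hm (-1 / s') hs'' * H92.sw * H92.sx (-1 / s') := by
    apply H92.sl2_ext <;> simp [H92.sl2_mul_apply] <;> field_simp <;> ring
  have e2 : D.t * D.Z s' * D.t = D.Z (-1 / s') *
      D.H (Units.mk0 ((-1 / s' : Fix F q) : F) (by simpa using hs'')) * (D.W * D.H D.dW⁻¹) *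
      D.Z (-1 / s') := by
    rw [map_inv, W, mul_inv_cancel_right, ← D.Hψ _ hs'', ← D.ψw]
    simp only [Pre.Z, ← map_mul]
    exact congrArg D.ψ id3
  rw [e2]
  refine Cell.mul_H D _ (Cell.mul_U D (D.inU_Z _) ?_)
  rw [← mul_assoc]
  exact Cell.mul_H D _ ⟨_, 1, InU.mul_H D (D.inU_Z _) _, D.inU_one, by rw [mul_one]⟩

theorem node_step {ρ σ a : F} (hρ : ρ * ρ ^ q = 1) (hρ1 : ρ ≠ 1) (hσ : σ * σ ^ q = 1) (hσ1 : σ ≠ 1)
    (hσρ : σ ≠ ρ) (ha : a ≠ 0) (h1 : D.Node ρ a) (h2 : D.Node (σ / ρ) (a * ρ)) : D.Node σ a := by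
  have hρ0 : ρ ≠ 0 := left_ne_zero_of_mul (hρ ▸ one_ne_zero)
  have hρq : ρ ^ q = 1 / ρ := by field_simp; linear_combination hρ
  have hN : a * a ^ q ≠ 0 := mul_ne_zero ha (pow_ne_zero _ ha)
  have e1 : ρ - 1 ≠ 0 := sub_ne_zero.2 hρ1
  have e2 : σ - 1 ≠ 0 := sub_ne_zero.2 hσ1
  have e3 : σ - ρ ≠ 0 := sub_ne_zero.2 hσρ
  have hT := node_Tz (q := q) (a := a) hρ hρ1
  have hb : a * a ^ q / (ρ - 1) ≠ 0 := div_ne_zero hN e1
  -- the central correction
  have hdb : a * a ^ q / (σ - 1) - a * a ^ q / (ρ - 1) ≠ 0 := by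
    rw [div_sub_div _ _ e2 e1, div_ne_zero_iff]
    refine ⟨?_, mul_ne_zero e2 e1⟩
    rw [show a * a ^ q * (ρ - 1) - (σ - 1) * (a * a ^ q) = -(a * a ^ q) * (σ - ρ) by ring]
    exact mul_ne_zero (neg_ne_zero.2 hN) e3
  have hT0 : Tz q 0 (a * a ^ q / (σ - 1) - a * a ^ q / (ρ - 1)) := by
    have hT' := node_Tz (q := q) (a := a) hσ hσ1
    unfold Tz at hT hT' ⊢
    rw [pq_sub, pq_zero]
    linear_combination hT' - hT
  obtain ⟨z, hz⟩ : ∃ z : Fix F q, D.δ * z = a * a ^ q / (σ - 1) - a * a ^ q / (ρ - 1) := by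
    refine ⟨⟨(a * a ^ q / (σ - 1) - a * a ^ q / (ρ - 1)) / D.δ, ?_⟩, by
      show D.δ * _ = _; rw [mul_div_cancel₀ _ D.hδ0]⟩
    rw [mem_fix]
    unfold Tz at hT0
    rw [div_pow, D.hδ, div_neg, ← neg_div]
    congr 1
    rw [pq_zero] at hT0
    linear_combination -hT0
  have hz0 : z ≠ 0 := by
    rintro rfl
    rw [Subfield.coe_zero, mul_zero] at hz
    exact hdb hz.symm
  have hUz : D.U 0 (a * a ^ q / (σ - 1) - a * a ^ q / (ρ - 1)) = D.Z z :=
    (D.U_eq (D.inU_Z z) hT0 ((D.fZ z).trans (uM_eq rfl hz))).symm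
  have main := cell_mul D hT hT0 hb hdb h1 (hUz ▸ D.cell_Z hz0) ?_
  · unfold Node
    have : D.U a (a * a ^ q / (σ - 1)) =
        D.U a (a * a ^ q / (ρ - 1)) * D.U 0 (a * a ^ q / (σ - 1) - a * a ^ q / (ρ - 1)) := by
      refine (D.U_eq (InU.mul D (D.inU_U _ _) (D.inU_U _ _)) (node_Tz hσ hσ1) ?_).symm
      rw [map_mul, D.fUab hT, D.fUab hT0, uM_mul]
      exact uM_eq (add_zero a) (by ring)
    rw [this]
    exact main
  · -- the product is the node `σ / ρ`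
    have hτ : σ / ρ * (σ / ρ) ^ q = 1 := by
      rw [div_pow, div_mul_div_comm, hσ, hρ, div_one]
    have hτ1 : σ / ρ ≠ 1 := fun e => hσρ (by rw [div_eq_one_iff_eq hρ0] at e; exact e)
    have hne : (ρ - 1) / (a * a ^ q) ≠ 0 := div_ne_zero e1 hN
    have hc := node_conj D hτ hτ1 (Units.mk0 _ hne) h2
    unfold Node at hc
    rw [Units.val_mk0] at hc
    have e4 : σ / ρ - 1 ≠ 0 := sub_ne_zero.2 hτ1
    have ha' : mu q ((ρ - 1) / (a * a ^ q)) * (a * ρ) = -(a / (a * a ^ q / (ρ - 1)) ^ q) := by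
      have haq : a ^ q ≠ 0 := pow_ne_zero _ ha
      have h1q : 1 / ρ - 1 ≠ 0 := by
        rw [sub_ne_zero, ne_eq, div_eq_one_iff_eq hρ0]
        exact fun e => hρ1 e.symm
      unfold mu
      simp only [div_pow, mul_pow, pq_pq, pq_sub, one_pow, hρq]
      field_simp
      ring
    rw [ha'] at hc
    have hP : D.U (-(a / (a * a ^ q / (ρ - 1)) ^ q)) (1 / (a * a ^ q / (ρ - 1))) *
        D.U (-(0 / (a * a ^ q / (σ - 1) - a * a ^ q / (ρ - 1))))
          (1 / (a * a ^ q / (σ - 1) - a * a ^ q / (ρ - 1))) =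
        D.U (-(a / (a * a ^ q / (ρ - 1)) ^ q))
          (-(a / (a * a ^ q / (ρ - 1)) ^ q) * (-(a / (a * a ^ q / (ρ - 1)) ^ q)) ^ q / (σ / ρ - 1)) := by
      refine D.U_eq (InU.mul D (D.inU_U _ _) (D.inU_U _ _)) (node_Tz hτ hτ1) ?_
      rw [map_mul, D.fUab (hT.div_right hb), D.fUab (hT0.div_left hdb), uM_mul]
      refine uM_eq (by rw [zero_div, neg_zero, add_zero]) ?_
      rw [zero_div, neg_zero, mul_zero, sub_zero]
      have haq : a ^ q ≠ 0 := pow_ne_zero _ ha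
      have h1q : 1 / ρ - 1 ≠ 0 := by
        rw [sub_ne_zero, ne_eq, div_eq_one_iff_eq hρ0]
        exact fun e => hρ1 e.symm
      have h5 : a * a ^ q * (ρ - 1) - (σ - 1) * (a * a ^ q) ≠ 0 := by
        rw [show a * a ^ q * (ρ - 1) - (σ - 1) * (a * a ^ q) = -(a * a ^ q) * (σ - ρ) by ring]
        exact mul_ne_zero (neg_ne_zero.2 hN) e3
      rw [div_sub_div _ _ e2 e1, one_div_div, one_div_div]
      simp only [div_pow, mul_pow, pq_pq, pq_sub, one_pow, hρq, pq_neg]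
      field_simp
      rw [one_add_div (show ρ - 1 - (σ - 1) ≠ 0 from fun e => e3 (by linear_combination -e)), div_mul_eq_mul_div,
        div_eq_iff (show ρ - 1 - (σ - 1) ≠ 0 from fun e => e3 (by linear_combination -e))]
      ring
    rw [hP]
    exact hc

theorem node_all {ρ : F} (hρo : orderOf ρ = q + 1)
    (seed : ∀ a : F, a ≠ 0 → ∃ (c : Fˣ) (r : F), a = mu q (c : F) * r ∧ D.Node ρ r) :
    ∀ σ a : F, σ * σ ^ q = 1 → σ ≠ 1 → a ≠ 0 → D.Node σ a := by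
  have hρ : ρ * ρ ^ q = 1 := by rw [← pow_succ', ← hρo, pow_orderOf_eq_one]
  have h2 := H3.two_le_q hq.out
  have hρ1 : ρ ≠ 1 := fun e => by rw [e, orderOf_one] at hρo; omega
  have hn : ∀ j : ℕ, ρ ^ j * (ρ ^ j) ^ q = 1 := fun j => by
    rw [← pow_mul, mul_comm j, pow_mul, ← mul_pow, hρ, one_pow]
  have hne : ∀ j, 0 < j → j ≤ q → ρ ^ j ≠ 1 := fun j h0 hj e => by
    have := orderOf_le_of_pow_eq_one h0 e; omega
  have key : ∀ j, 1 ≤ j → j ≤ q → ∀ a : F, a ≠ 0 → D.Node (ρ ^ j) a := by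
    intro j h1
    induction j, h1 using Nat.le_induction with
    | base =>
      intro _ a ha
      obtain ⟨c, r, rfl, hr⟩ := seed a ha
      rw [pow_one]
      exact node_conj D hρ hρ1 c hr
    | succ j h1 ih =>
      intro hj a ha
      have hρ0 : ρ ≠ 0 := left_ne_zero_of_mul (hρ ▸ one_ne_zero)
      obtain ⟨c, r, e, hr⟩ := seed a ha
      refine node_step D hρ hρ1 (hn _) (hne _ (by omega) hj) (fun e' => ?_) ha
        (e ▸ node_conj D hρ hρ1 c hr) ?_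
      · rw [pow_succ, mul_eq_right₀ hρ0] at e'
        exact hne j h1 (by omega) e'
      · rw [pow_succ, mul_div_cancel_right₀ _ hρ0]
        exact ih (by omega) _ (mul_ne_zero ha hρ0)
  intro σ a hσ hσ1 ha
  classical
  have hfin : IsOfFinOrder ρ := orderOf_pos_iff.1 (by omega)
  haveI : NeZero (q + 1) := ⟨by omega⟩
  have hprim : IsPrimitiveRoot ρ (q + 1) := hρo ▸ IsPrimitiveRoot.orderOf ρ
  obtain ⟨j, hj, rfl⟩ := hprim.eq_pow_of_pow_eq_one (show σ ^ (q + 1) = 1 by rw [pow_succ', hσ])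
  exact key j (Nat.one_le_iff_ne_zero.2 fun e => hσ1 (by rw [e, pow_zero])) (by omega) a ha

theorem cell_all {ρ : F} (hρo : orderOf ρ = q + 1)
    (seed : ∀ a : F, a ≠ 0 → ∃ (c : Fˣ) (r : F), a = mu q (c : F) * r ∧ D.Node ρ r)
    {x : X} (hx : D.InU x) (hx1 : x ≠ 1) : D.Cell (D.W * x * D.W) := by
  obtain ⟨a, b, h, e⟩ := D.fU hx
  rcases eq_or_ne a 0 with rfl | ha
  · have hfix : (b / D.δ) ^ q = b / D.δ := by
      unfold Tz at h
      rw [div_pow, D.hδ, div_neg, ← neg_div]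
      congr 1
      rw [pq_zero] at h
      linear_combination -h
    have hz : x = D.Z ⟨b / D.δ, hfix⟩ := D.eq_of_f (InU.inB D hx) (InU.inB D (D.inU_Z _))
      (by rw [e, D.fZ]; exact uM_eq rfl (mul_div_cancel₀ b D.hδ0).symm)
    rw [hz]
    refine D.cell_Z fun e0 => hx1 ?_
    rw [hz, e0, D.Z_zero]
  · have hb : b ≠ 0 := h.b_ne fun hh => ha hh.1
    have hbq : b ^ q ≠ 0 := pow_ne_zero _ hb
    have hN : a * a ^ q ≠ 0 := mul_ne_zero ha (pow_ne_zero _ ha)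
    have hT : b + b ^ q + a * a ^ q = 0 := h
    have hσ : (1 + a * a ^ q / b) * (1 + a * a ^ q / b) ^ q = 1 := by
      rw [pq_add, one_pow, div_pow, mul_pow, pq_pq]
      field_simp
      linear_combination (a * a ^ q) * hT
    have hσ1 : 1 + a * a ^ q / b ≠ 1 := by
      intro e1
      exact div_ne_zero hN hb (by linear_combination e1)
    have hn := node_all D hρo seed _ a hσ hσ1 ha
    unfold Node at hn
    have eb : a * a ^ q / (1 + a * a ^ q / b - 1) = b := by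
      rw [add_sub_cancel_left, div_div_eq_mul_div, mul_div_cancel_left₀ _ hN]
    rw [eb] at hn
    rw [D.U_eq hx h e]
    exact hn

/-- The homomorphism to the model is bijective. -/
theorem bijective {ρ : F} (hρo : orderOf ρ = q + 1)
    (seed : ∀ a : F, a ≠ 0 → ∃ (c : Fˣ) (r : F), a = mu q (c : F) * r ∧ D.Node ρ r) :
    Function.Bijective D.f := by
  let S : Set X := {x | D.InB x ∨ D.Cell x}
  have hB : ∀ s ∈ S, ∀ y, D.InB y → s * y ∈ S := by
    rintro s (hs | hs) y hy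
    · exact Or.inl (InB.mul D hs hy)
    · obtain ⟨z, c, hz, rfl⟩ := InB.decomp D hy
      right
      rw [← mul_assoc]
      exact Cell.mul_H D c (Cell.mul_U D hz hs)
  have hW : ∀ s ∈ S, s * D.W ∈ S := by
    rintro s (hs | hs)
    · exact Or.inr ⟨s, 1, hs, D.inU_one, by rw [mul_one]⟩
    · obtain ⟨y, z, hy, hz, rfl⟩ := hs
      rw [mul_assoc y, mul_assoc]
      rcases eq_or_ne z 1 with rfl | hz1
      · left; rwa [mul_one, D.W_sq, mul_one]
      · right; exact Cell.mul_left D hy (cell_all D hρo seed hz hz1)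
  have hmem : ∀ x : X, ∀ s ∈ S, s * x ∈ S ∧ s * x⁻¹ ∈ S := by
    intro x
    have hx : x ∈ Subgroup.closure ({D.u, D.h, D.t} : Set X) := by rw [D.gen]; trivial
    induction hx using Subgroup.closure_induction with
    | mem y hy =>
      intro s hs
      simp only [Set.mem_insert_iff, Set.mem_singleton_iff] at hy
      rcases hy with rfl | rfl | rfl
      · exact ⟨hB s hs _ (InU.inB D D.inU_u), hB s hs _ (InU.inB D (D.inU_inv D.inU_u))⟩
      · rw [← D.H_gen, ← map_inv]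
        exact ⟨hB s hs _ (D.inB_H _), hB s hs _ (D.inB_H _)⟩
      · have ht : D.t = D.W * D.H D.dW⁻¹ := by rw [W, map_inv, mul_inv_cancel_right]
        have hWi : D.W⁻¹ = D.W := inv_eq_of_mul_eq_one_right D.W_sq
        rw [ht, mul_inv_rev, hWi, ← map_inv, ← mul_assoc, ← mul_assoc]
        exact ⟨hB _ (hW s hs) _ (D.inB_H _), hW _ (hB s hs _ (D.inB_H _))⟩
    | one => intro s hs; simp [hs]
    | mul y z _ _ ihy ihz =>
      intro s hs
      refine ⟨?_, ?_⟩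
      · rw [← mul_assoc]; exact (ihz _ (ihy s hs).1).1
      · rw [mul_inv_rev, ← mul_assoc]; exact (ihy _ (ihz s hs).2).2
    | inv y _ ih =>
      intro s hs
      exact ⟨(ih s hs).2, by rw [inv_inv]; exact (ih s hs).1⟩
  have h1 : (1 : X) ∈ S := Or.inl (InU.inB D D.inU_one)
  have hall : ∀ x : X, x ∈ S := fun x => by simpa using (hmem x 1 h1).1
  refine ⟨(injective_iff_map_eq_one D.f).2 fun x hx => ?_, fun g => ?_⟩
  · rcases hall x with hB | hC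
    · exact D.eq_of_f hB (InU.inB D D.inU_one) (hx.trans (map_one _).symm)
    · exfalso
      obtain ⟨y, z, hy, hz, rfl⟩ := hC
      obtain ⟨y, c, hyu, rfl⟩ := InB.decomp D hy
      obtain ⟨a1, b1, h1, e1⟩ := D.fU hyu
      obtain ⟨a2, b2, h2, e2⟩ := D.fU hz
      simp only [map_mul, e1, e2, D.fH, D.fW] at hx
      refine cell_ne (hx.trans (?_ : (1 : Mdl F q) = uM 0 0 Tz.zero * hM 1))
      rw [uM_zero, map_one, mul_one]
  · rcases decompose g with ⟨a, b, h, c, rfl⟩ | ⟨a, b, h, x, y, hx, c, rfl⟩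
    · exact ⟨D.U a b * D.H c, by rw [map_mul, D.fUab h, D.fH]⟩
    · exact ⟨D.U a b * D.W * (D.U x y * D.H c), by
        rw [map_mul, map_mul, map_mul, D.fUab h, D.fUab hx, D.fH, D.fW]⟩

end Full

end Cfsg.Agent.H81.SU3Pres
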