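import Cfsg.Agent.H81.SU3Pres.Model
import Cfsg.Agent.H14.UThree.Radical

/-!
# The model is the special unitary group of the standard form
-/

set_option autoImplicit false

namespace Cfsg.Agent.H81.SU3Pres

open Matrix Cfsg

variable {F : Type*} [Field F] [Fintype F] {q : ℕ} [hq : Fact (Fintype.card F = q ^ 2)]

include hq in
theorem nonempty_equiv : Nonempty (Mdl F q ≃* SU 3 F q) := by
  classical
  have hF := hq.out
  obtain ⟨v, hv, hv0⟩ := H3.exists_isotropic hF (n := 3) (by omega)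
  obtain ⟨x, w, T⟩ := H14.UThree.exists_trip hF hv hv0
  let C : Matrix (Fin 3) (Fin 3) F := Matrix.of fun i j => ![v, x, w] j i
  have hC : ∀ y : Fin 3 → F, C *ᵥ y = y 0 • v + y 1 • x + y 2 • w := fun y => by
    ext i
    simp [C, Matrix.mulVec, dotProduct, Fin.sum_univ_three]
    ring
  have hform : ∀ y z : Fin 3 → F, hermForm 3 F q (C *ᵥ y) (C *ᵥ z) = aForm q y z := fun y z => by
    rw [hC, hC]
    simp only [H3.hermForm_add_left hF, H3.hermForm_add_right hF, H3.hermForm_smul_left hF,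
      H3.hermForm_smul_right hF, T.vv, T.ww, T.wv, T.xx, T.xv, T.xw, T.vw hF, T.vx hF, T.wx hF, aForm]
    ring
  have hu : IsUnit C.det := by
    rw [← Matrix.isUnit_iff_isUnit_det, ← Matrix.linearIndependent_cols_iff_isUnit]
    exact T.linearIndependent hF
  let G : GL (Fin 3) F := Matrix.GeneralLinearGroup.mkOfDetNeZero C hu.ne_zero
  have h1 : (G : Matrix (Fin 3) (Fin 3) F) * (↑(G⁻¹) : Matrix (Fin 3) (Fin 3) F) = 1 := G.mul_inv
  have h2 : (↑(G⁻¹) : Matrix (Fin 3) (Fin 3) F) * (G : Matrix (Fin 3) (Fin 3) F) = 1 := G.inv_mul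
  have hGC : (G : Matrix (Fin 3) (Fin 3) F) = C := rfl
  generalize hCi : (↑(G⁻¹) : Matrix (Fin 3) (Fin 3) F) = Ci at h1 h2
  rw [hGC] at h1 h2
  let σ : SpecialLinearGroup (Fin 3) F ≃* SpecialLinearGroup (Fin 3) F :=
    { toFun := fun g => ⟨C * g * Ci, by
        rw [Matrix.det_mul, Matrix.det_mul, mul_right_comm, ← Matrix.det_mul, h1, Matrix.det_one, one_mul, g.2]⟩
      invFun := fun g => ⟨Ci * g * C, by
        rw [Matrix.det_mul, Matrix.det_mul, mul_right_comm, ← Matrix.det_mul, h2, Matrix.det_one, one_mul, g.2]⟩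
      left_inv := fun g => Subtype.ext (by
        show Ci * (C * g * Ci) * C = g
        simp only [← mul_assoc, h2, one_mul]
        simp only [mul_assoc, h2, mul_one])
      right_inv := fun g => Subtype.ext (by
        show C * (Ci * g * C) * Ci = g
        simp only [← mul_assoc, h1, one_mul]
        simp only [mul_assoc, h1, mul_one])
      map_mul' := fun g g' => Subtype.ext (by
        show C * (g.1 * g'.1) * Ci = (C * g.1 * Ci) * (C * g'.1 * Ci)
        simp only [mul_assoc]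
        rw [← mul_assoc Ci C, h2, one_mul]) }
  have hmem : ∀ g, g ∈ Mdl F q ↔ σ g ∈ SU 3 F q := by
    intro g
    rw [H3.mem_SU_iff]
    have e : ∀ y, (σ g : Matrix (Fin 3) (Fin 3) F) *ᵥ (C *ᵥ y) = C *ᵥ ((g : Matrix (Fin 3) (Fin 3) F) *ᵥ y) := by
      intro y
      show (C * g.1 * Ci) *ᵥ _ = _
      rw [Matrix.mulVec_mulVec, Matrix.mulVec_mulVec, mul_assoc (C * g.1), h2, mul_one]
    constructor
    · intro hg y z
      rw [show y = C *ᵥ (Ci *ᵥ y) by rw [Matrix.mulVec_mulVec, h1, Matrix.one_mulVec],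
        show z = C *ᵥ (Ci *ᵥ z) by rw [Matrix.mulVec_mulVec, h1, Matrix.one_mulVec], e, e, hform, hform]
      exact hg _ _
    · intro hg y z
      have := hg (C *ᵥ y) (C *ᵥ z)
      rwa [e, e, hform, hform] at this
  have hmap : (Mdl F q).map σ.toMonoidHom = SU 3 F q := by
    ext g
    constructor
    · rintro ⟨g', hg', rfl⟩; exact (hmem g').1 hg'
    · intro hg
      exact ⟨σ.symm g, (hmem _).2 (by rwa [σ.apply_symm_apply]), σ.apply_symm_apply g⟩
  exact ⟨(σ.subgroupMap (Mdl F q)).trans (MulEquiv.subgroupCongr hmap)⟩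

end Cfsg.Agent.H81.SU3Pres
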