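import Cfsg.Agent.H81.SU3Pres.Choice
import Cfsg.Agent.H81.SU3Pres.Core
import Cfsg.Agent.H81.SU3Pres.Iso

/-!
# A short presentation of `SU₃(q)`
-/

set_option autoImplicit false

namespace Cfsg.Agent.H81.SU3Pres

open SLPres Polynomial
open scoped MatrixGroups

theorem span_of_surjective {K : Type*} [Field K] {p : ℕ} [Fact p.Prime] [Algebra (ZMod p) K] (x : K)
    (hx : Function.Surjective (Polynomial.aeval (R := ZMod p) x)) (A : AddSubmonoid K)
    (hA : ∀ i : ℕ, x ^ i ∈ A) : ∀ y, y ∈ A := by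
  intro y
  obtain ⟨P, rfl⟩ := hx y
  rw [Polynomial.aeval_eq_sum_range]
  refine sum_mem fun i _ => ?_
  rw [← ZMod.natCast_zmod_val (P.coeff i), Nat.cast_smul_eq_nsmul]
  exact nsmul_mem (hA i) _

/-- A word is replaced by itself times a root word. -/
theorem lift_comp {α β G : Type*} [Group G] (w : α → FreeGroup β) (g : β → G) (r : FreeGroup α) :
    FreeGroup.lift g (FreeGroup.lift w r) = FreeGroup.lift (fun i => FreeGroup.lift g (w i)) r :=
  DFunLike.congr_fun (FreeGroup.ext_hom ((FreeGroup.lift g).comp (FreeGroup.lift w))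
    (FreeGroup.lift fun i => FreeGroup.lift g (w i)) fun i => by simp) r

variable {F : Type*} [Field F] [Fintype F] {q : ℕ} [hq : Fact (Fintype.card F = q ^ 2)]

theorem IsU.eq_slEmb {x : Mdl F q} (hx : IsU 0 x) {δ : F} (hδ0 : δ ≠ 0) (hδ : δ ^ q = -δ) :
    ∃ s : Fix F q, x = slEmb δ hδ0 hδ (H92.sx s) := by
  obtain ⟨b, h, rfl⟩ := hx
  have hfix : (b / δ) ^ q = b / δ := by
    unfold Tz at h
    rw [div_pow, hδ, div_neg, ← neg_div]
    congr 1
    rw [pq_zero] at h
    linear_combination -h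
  refine ⟨⟨b / δ, hfix⟩, ?_⟩
  rw [slEmb_sx]
  exact uM_eq rfl (mul_div_cancel₀ b hδ0).symm

include hq in
theorem sl2_gens (h4 : 4 ≤ q) :
    ∃ (a : Fix F q) (ha : a ≠ 0), orderOf a = q - 1 ∧
      ∃ rels : Finset (FreeGroup (Fin 3)), rels.card ≤ 8 ∧ (q = 8 → rels.card ≤ 5) ∧
        ∃ e : PresentedGroup (↑rels : Set (FreeGroup (Fin 3))) ≃* SL(2, Fix F q),
          ∀ i, e (PresentedGroup.of i) =
            (![H92.sx (1 : Fix F q), hm a ha, H92.sw] : Fin 3 → SL(2, Fix F q)) i := by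
  classical
  haveI : Fintype (Fix F q) := Fintype.ofFinite _
  have hcard : Fintype.card (Fix F q) = q := by rw [← Nat.card_eq_fintype_card, card_fix]
  obtain ⟨p, f, hp, hc, hf, hqf⟩ := H3.exists_q_eq_pow hq.out
  haveI := Fact.mk hp
  haveI : CharP (Fix F q) p := (RingHom.charP_iff (Fix F q).subtype Subtype.coe_injective p).2 hc
  letI : Algebra (ZMod p) (Fix F q) := ZMod.algebra _ p
  by_cases hp2 : p = 2
  · subst hp2
    obtain ⟨a, ha, ho, rels, hr, e, he⟩ := SLPres.two_gens (F := Fix F q)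
    exact ⟨a, ha, by rw [ho, hcard], rels, hr.trans (by norm_num), fun _ => hr, e, he⟩
  · obtain ⟨a, ha, ho, rels, hr, e, he⟩ := SLPres.odd_gens (F := Fix F q) hp2
    refine ⟨a, ha, by rw [ho, hcard], rels, hr, fun h8 => absurd ?_ hp2, e, he⟩
    exact (Nat.prime_dvd_prime_iff_eq hp Nat.prime_two).1
      (hp.dvd_of_dvd_pow (show p ∣ 2 ^ 3 by
        rw [show (2 : ℕ) ^ 3 = 8 from rfl, ← h8, hqf]; exact dvd_pow_self p (by omega)))

include hq in
/-- A presentation of the model with 22 relations. -/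
theorem mdl_pres (h4 : 4 ≤ q) (h5 : q ≠ 5) :
    ∃ rels : Finset (FreeGroup (Fin 3)), rels.card ≤ 22 ∧
      Nonempty (PresentedGroup (↑rels : Set (FreeGroup (Fin 3))) ≃* Mdl F q) := by
  classical
  haveI : Fintype (Fix F q) := Fintype.ofFinite _
  have hcard : Fintype.card (Fix F q) = q := by rw [← Nat.card_eq_fintype_card, card_fix]
  obtain ⟨p, fdeg, hp, hc, hf, hqf⟩ := H3.exists_q_eq_pow hq.out
  haveI := Fact.mk hp
  haveI : CharP (Fix F q) p := (RingHom.charP_iff (Fix F q).subtype Subtype.coe_injective p).2 hc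
  letI : Algebra (ZMod p) (Fix F q) := ZMod.algebra _ p
  letI : Algebra (ZMod p) F := ZMod.algebra _ p
  obtain ⟨ζ, hζg⟩ := IsCyclic.exists_generator (α := Fˣ)
  have hζ : orderOf ζ = q ^ 2 - 1 := by
    rw [orderOf_eq_card_of_forall_mem_zpowers hζg, Nat.card_units, Nat.card_eq_fintype_card, hq.out]
  have hlog : ∀ c : F, c ≠ 0 → ∃ i : ℕ, (ζ : F) ^ i = c := fun c hc => by
    obtain ⟨i, hi⟩ := mem_powers_iff_mem_zpowers.2 (hζg (Units.mk0 c hc))
    exact ⟨i, by simpa using congrArg Units.val hi⟩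
  obtain ⟨a0, ha0, ho, R, hR8, hR5, eSL, heSL⟩ := sl2_gens (F := F) h4
  obtain ⟨k, E, hE5, hE2, hk, hEimg, hEphi⟩ := exists_choice (p := p) ζ hζ h4 h5
  -- parameters
  set m := mu q (ζ : F) ^ k with hm'
  set δ := m ^ q - m with hδ'
  have hδ0 : δ ≠ 0 := sub_ne_zero.2 hk
  have hδ : δ ^ q = -δ := by rw [hδ', pq_sub, pq_pq]; ring
  obtain ⟨b0, hb0'⟩ := H3.exists_trace_eq hq.out (a := (-1 : F)) (by rw [pq_neg, one_pow])
  have hb0 : Tz q 1 b0 := by unfold Tz; rw [one_pow]; linear_combination hb0'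
  have hgen0 : ∀ c : Fix F q, c ≠ 0 → ∃ l : ℕ, c = a0 ^ l := by
    intro c hc
    haveI : Fintype (Fix F q)ˣ := inferInstance
    have hz : Subgroup.zpowers (Units.mk0 a0 ha0) = ⊤ := by
      refine Subgroup.eq_top_of_card_eq _ ?_
      rw [Nat.card_zpowers, ← orderOf_units, Units.val_mk0, ho, Nat.card_units, card_fix]
    obtain ⟨l, hl⟩ := mem_powers_iff_mem_zpowers.2 (hz ▸ Subgroup.mem_top (Units.mk0 c hc))
    exact ⟨l, by simpa using (congrArg Units.val hl).symm⟩
  have hsq := gen_sq (p := p) a0 (by rw [hcard]; exact ho)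
  have h1a : 1 + a0 ≠ 0 := fun h => by
    have : a0 ^ 2 = 1 := by linear_combination (a0 - 1) * h
    have := orderOf_le_of_pow_eq_one two_pos this
    omega
  have hinv : Function.Surjective (Polynomial.aeval (R := ZMod p) (1 + a0)⁻¹) := by
    rcases gen_or_small (p := p) (1 + a0)⁻¹ with h | ⟨d, hQ2, hd, hx⟩
    · exact h
    · exfalso
      rw [inv_pow, inv_inj, add_pow_char_pow, one_pow, add_right_inj] at hx
      have h1 : a0 ^ (p ^ d - 1) = 1 := by
        refine mul_right_cancel₀ ha0 ?_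
        rw [← pow_succ, Nat.sub_add_cancel (by omega), one_mul, hx]
      have := orderOf_le_of_pow_eq_one (by omega) h1
      rw [hcard] at hd
      have : 2 * p ^ d ≤ p ^ d * p ^ d := Nat.mul_le_mul_right _ hQ2
      omega
  obtain ⟨e, he⟩ := hlog (a0 : F) (by simpa using ha0)
  obtain ⟨e', he'⟩ := hlog (1 + (a0 : F)) (fun h => h1a (Subtype.ext (by simpa using h)))
  obtain ⟨eW, heW⟩ := hlog (-δ) (neg_ne_zero.2 hδ0)
  -- words
  let f0 : Fin 3 → Mdl F q := ![uM 1 b0 hb0, hM ζ, slEmb δ hδ0 hδ H92.sw]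
  have fu : f0 0 = uM 1 b0 hb0 := rfl
  have fh : f0 1 = hM ζ := rfl
  let fSL : Fin 3 → SL(2, Fix F q) := ![H92.sx (1 : Fix F q), hm a0 ha0, H92.sw]
  let zL : FreeGroup (Fin 3) := gu * cj gu gh k * gu⁻¹ * (cj gu gh k)⁻¹
  let ι : Fin 3 → FreeGroup (Fin 3) := ![zL, gh ^ e, gt]
  have hzL : FreeGroup.lift f0 zL = slEmb δ hδ0 hδ (H92.sx (1 : Fix F q)) := by
    simp only [zL, map_mul, map_inv, map_pow, map_cj, gu, gh, FreeGroup.lift_apply_of, fu, fh, cj]
    rw [← map_pow, hM_uM, uM_inv, uM_inv, uM_mul, uM_mul, uM_mul, slEmb_sx]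
    have hmk : mu q ((ζ ^ k : Fˣ) : F) = m := by rw [Units.val_pow_eq_pow_val, mu_pow]
    have hT := hb0.conj (q := q) (ζ ^ k).ne_zero
    unfold Tz at hT
    rw [hmk, mul_one] at hT
    refine uM_eq (by rw [hmk]; ring) ?_
    rw [hmk, Subfield.coe_one, mul_one, mul_one, one_pow, one_mul]
    simp only [pq_add, pq_neg, one_pow, hδ']
    linear_combination hb0' + hT
  have hι : ∀ r, FreeGroup.lift f0 (FreeGroup.lift ι r) = slEmb δ hδ0 hδ (FreeGroup.lift fSL r) := by
    intro r
    rw [lift_comp]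
    refine DFunLike.congr_fun (FreeGroup.ext_hom (FreeGroup.lift fun i => FreeGroup.lift f0 (ι i))
      ((slEmb δ hδ0 hδ).comp (FreeGroup.lift fSL)) fun i => ?_) r
    simp only [FreeGroup.lift_apply_of, MonoidHom.comp_apply]
    fin_cases i
    · exact hzL
    · show FreeGroup.lift f0 (gh ^ e) = slEmb δ hδ0 hδ (hm a0 ha0)
      rw [map_pow, gh, FreeGroup.lift_apply_of, slEmb_hm, fh, ← map_pow]
      exact congrArg hM (Units.ext (by simpa using he))
    · simp [ι, fSL, gt, f0]
  let P : Fix F q → (ZMod p)[X] := Function.surjInv hsq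
  have hP : ∀ s, Polynomial.aeval (a0 ^ 2) (P s) = s := Function.surjInv_eq hsq
  let zw : Fix F q → FreeGroup (Fin 3) := fun s => FreeGroup.lift ι (wd gu gh (P s))
  have hfSL : ∀ s, FreeGroup.lift fSL (wd gu gh (P s)) = H92.sx s := fun s => by
    simp only [map_wd, gu, gh, FreeGroup.lift_apply_of, fSL, Matrix.cons_val_zero, Matrix.cons_val_one]
    rw [img_wd, hP]
  have hzw : ∀ s, FreeGroup.lift f0 (zw s) = slEmb δ hδ0 hδ (H92.sx s) := fun s => by
    rw [hι, hfSL]
  -- central corrections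
  have hzc : ∀ w : FreeGroup (Fin 3), ∃ s : Fix F q, IsU 0 (FreeGroup.lift f0 w) →
      FreeGroup.lift f0 (w * (zw s)⁻¹) = 1 := fun w => by
    by_cases h : IsU 0 (FreeGroup.lift f0 w)
    · obtain ⟨s, hs⟩ := h.eq_slEmb hδ0 hδ
      exact ⟨s, fun _ => by rw [map_mul, map_inv, hzw, hs, mul_inv_cancel]⟩
    · exact ⟨0, fun h' => absurd h' h⟩
  choose zc hzc using hzc
  let zfix : FreeGroup (Fin 3) → FreeGroup (Fin 3) := fun w => w * (zw (zc w))⁻¹
  -- unipotent words
  let Q : F → (ZMod p)[X] := Function.surjInv (mu_gen (p := p) ζ hζ h4)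
  have hQ : ∀ a, Polynomial.aeval (mu q (ζ : F)) (Q a) = a :=
    Function.surjInv_eq (mu_gen (p := p) ζ hζ h4)
  have hU0 : IsU (1 : F) (f0 0) := ⟨b0, hb0, rfl⟩
  have hUw : ∀ a b : F, ∃ s : Fix F q, ∀ h : Tz q a b,
      FreeGroup.lift f0 (wd gu gh (Q a) * zw s) = uM a b h := by
    intro a b
    by_cases h : Tz q a b
    · obtain ⟨b', hb', e1⟩ := hU0.wd ζ (Q a)
      have hwd : FreeGroup.lift f0 (wd gu gh (Q a)) = wd (f0 0) (hM ζ) (Q a) := by
        simp only [map_wd, gu, gh, FreeGroup.lift_apply_of, fh]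
      have hfix : ((b - b') / δ) ^ q = (b - b') / δ := by
        rw [hQ] at hb'
        unfold Tz at h hb'
        rw [div_pow, hδ, div_neg, ← neg_div, pq_sub]
        congr 1
        linear_combination hb' - h
      refine ⟨⟨_, hfix⟩, fun h => ?_⟩
      rw [map_mul, hzw, hwd, e1, slEmb_sx, uM_mul]
      refine uM_eq (by rw [add_zero, hQ]) ?_
      field_simp
      ring
    · exact ⟨0, fun h' => absurd h' h⟩
  choose sU hUw using hUw
  let Uw : F → F → FreeGroup (Fin 3) := fun a b => wd gu gh (Q a) * zw (sU a b)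
  -- seeds
  set ρ : F := (ζ : F) ^ (q - 1) with hρ'
  have hρo : orderOf ρ = q + 1 := by
    rw [hρ', ← Units.val_pow_eq_pow_val, orderOf_units, orderOf_pow' _ (by omega), hζ, sq_one_sub (F := F),
      Nat.gcd_mul_right_left, Nat.mul_div_cancel_left _ (by omega)]
  have hρ : ρ * ρ ^ q = 1 := by rw [← pow_succ', ← hρo, pow_orderOf_eq_one]
  have hρ1 : ρ ≠ 1 := fun h => by rw [h, orderOf_one] at hρo; omega
  let reps : List F := [1, (ζ : F), (ζ : F) ^ 2]
  have hreps : ∀ r ∈ reps, r ≠ 0 := by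
    intro r hr
    simp only [reps, List.mem_cons, List.not_mem_nil, or_false] at hr
    rcases hr with rfl | rfl | rfl <;> simp
  let bb : F → F := fun r => r * r ^ q / (ρ - 1)
  have hcbar : ∀ r : F, ∃ j : ℕ, r ≠ 0 → (ζ : F) ^ j = ((bb r) ^ q)⁻¹ := fun r => by
    by_cases hr : r = 0
    · exact ⟨0, fun h => absurd hr h⟩
    · obtain ⟨j, hj⟩ := hlog ((bb r) ^ q)⁻¹ (inv_ne_zero (pow_ne_zero _ (div_ne_zero
        (mul_ne_zero hr (pow_ne_zero _ hr)) (sub_ne_zero.2 hρ1))))
      exact ⟨j, fun _ => hj⟩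
  choose jb hjb using hcbar
  let Ww : FreeGroup (Fin 3) := gt * gh ^ eW
  let brel : F → FreeGroup (Fin 3) := fun r => Ww * Uw r (bb r) * Ww *
    (Uw (-(r / bb r)) (1 / bb r) * gh ^ jb r * Ww * Uw (-(r / bb r ^ q)) (1 / bb r))⁻¹
  let E' : List (FreeGroup (Fin 3)) := E.map fun r => zfix (FreeGroup.lift ![gu, gh, 1] r)
  let cseeds : List (Fix F q) := [1, 1 / a0 ^ 2, 1 / a0, 1 / (1 + a0)]
  let N0 : Fix F q := ⟨nm q (ζ : F), nm_pq _⟩
  let L : List (FreeGroup (Fin 3)) :=
    E' ++ [gh ^ (q ^ 2 - 1), gt * gh * gt⁻¹ * gh ^ q, gh * zL * gh⁻¹ * (zw N0)⁻¹, zfix (gu ^ p),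
      zfix ((gu * cj gu gh e)⁻¹ * cj gu gh e')] ++
      cseeds.map (fun s => gu * zw s * gu⁻¹ * (zw s)⁻¹) ++ reps.map brel
  let Rall : Finset (FreeGroup (Fin 3)) := R.image (FreeGroup.lift ι) ∪ L.toFinset
  have hcardR : Rall.card ≤ 22 := by
    refine (Finset.card_union_le _ _).trans ((Nat.add_le_add Finset.card_image_le (List.toFinset_card_le L)).trans ?_)
    simp only [L, E', cseeds, reps, List.length_append, List.length_map, List.length_cons, List.length_nil]
    rcases eq_or_ne q 8 with h8 | h8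
    · have := hR5 h8; omega
    · have := hE2 h8; omega
  -- the relations hold in the model
  have hmem : ∀ r ∈ (↑Rall : Set (FreeGroup (Fin 3))), FreeGroup.lift f0 r = 1 := by
    intro r hr
    rcases Finset.mem_union.1 (Finset.mem_coe.1 hr) with h | h
    · obtain ⟨r', hr', rfl⟩ := Finset.mem_image.1 h
      rw [hι]
      have h1 : eSL (PresentedGroup.mk _ r') = FreeGroup.lift fSL r' :=
        DFunLike.congr_fun (FreeGroup.ext_hom (eSL.toMonoidHom.comp (PresentedGroup.mk _)) (FreeGroup.lift fSL)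
          fun i => by rw [FreeGroup.lift_apply_of]; exact heSL i) r'
      rw [← h1, PresentedGroup.one_of_mem (Finset.mem_coe.2 hr'), map_one, map_one]
    · simp only [List.mem_toFinset, L, E', List.mem_append, List.mem_map, List.mem_cons, List.not_mem_nil,
        or_false] at h
      rcases h with ((⟨r', hr', rfl⟩ | h) | ⟨s, -, rfl⟩) | ⟨r', hr', rfl⟩
      · refine hzc _ ?_
        rw [lift_comp]
        exact hEimg _ (by simpa [gu] using hU0) (by simp [gh, fh]) r' hr'
      · rcases h with rfl | rfl | rfl | rfl | rfl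
        · simp only [map_pow, gh, FreeGroup.lift_apply_of, fh]
          rw [← map_pow, ← hζ, pow_orderOf_eq_one, map_one]
        · simp only [map_mul, map_inv, map_pow, gh, gt, FreeGroup.lift_apply_of, fh]
          rw [show f0 2 = wM * hM (Units.mk0 (-δ) (neg_ne_zero.2 hδ0))⁻¹ from slEmb_sw δ hδ0 hδ]
          generalize (Units.mk0 (-δ) (neg_ne_zero.2 hδ0))⁻¹ = c
          rw [show wM * hM c * hM ζ * (wM * hM c)⁻¹ = wM * hM ζ * wM⁻¹ by
              rw [mul_assoc wM (hM c), ← map_mul, mul_comm c, map_mul]; group,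
            wM_hM, mul_inv_cancel_right, ← map_pow, ← map_mul]
          rw [show (Units.mk0 ((ζ : F) ^ q) (pow_ne_zero _ ζ.ne_zero))⁻¹ * ζ ^ q = 1 by
            rw [inv_mul_eq_one]; exact Units.ext (by simp), map_one]
        · simp only [map_mul, map_inv, gh, FreeGroup.lift_apply_of, fh, hzL, hzw, slEmb_sx, hM_uM]
          rw [mul_inv_eq_one]
          exact uM_eq (mul_zero _) (by simp [N0, mul_comm])
        · refine hzc _ ?_
          have := hU0.pow p
          simp only [nsmul_eq_mul, CharP.cast_eq_zero, zero_mul] at this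
          simpa [gu] using this
        · refine hzc _ ?_
          have h1 := (hU0.mul (hU0.cj ζ e)).inv.mul (hU0.cj ζ e')
          simp only [map_mul, map_inv, map_cj, gu, gh, FreeGroup.lift_apply_of, fh]
          have ea : mu q (ζ : F) ^ e = (a0 : F) := by rw [← mu_pow, he, mu_fix (fix_pq a0)]
          have ea' : mu q (ζ : F) ^ e' = 1 + (a0 : F) := by
            rw [← mu_pow, he', mu_fix (by rw [pq_add, one_pow, fix_pq])]
          rw [ea, ea', mul_one, mul_one, neg_add_cancel] at h1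
          exact h1
      · simp only [map_mul, map_inv, gu, FreeGroup.lift_apply_of, fu, hzw, slEmb_sx]
        rw [mul_inv_eq_one, mul_inv_eq_iff_eq_mul, uM_mul, uM_mul]
        exact uM_eq (by ring) (by rw [pq_zero]; ring)
      · have hne := hreps r' hr'
        have hT : Tz q r' (bb r') := Full.node_Tz hρ hρ1
        have hb : bb r' ≠ 0 := div_ne_zero (mul_ne_zero hne (pow_ne_zero _ hne)) (sub_ne_zero.2 hρ1)
        have hWw : FreeGroup.lift f0 Ww = wM := by
          simp only [Ww, map_mul, map_pow, gt, gh, FreeGroup.lift_apply_of, fh]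
          rw [show f0 2 = wM * hM (Units.mk0 (-δ) (neg_ne_zero.2 hδ0))⁻¹ from slEmb_sw δ hδ0 hδ,
            mul_assoc, ← map_pow, ← map_mul]
          rw [show (Units.mk0 (-δ) (neg_ne_zero.2 hδ0))⁻¹ * ζ ^ eW = 1 by
            rw [inv_mul_eq_one]; exact Units.ext (by simp [heW]), map_one, mul_one]
        have hjw : FreeGroup.lift f0 (gh ^ jb r') = hM (Units.mk0 (bb r' ^ q) (pow_ne_zero _ hb))⁻¹ := by
          rw [map_pow, gh, FreeGroup.lift_apply_of, fh, ← map_pow]
          exact congrArg hM (Units.ext (by simp [hjb r' hne]))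
        simp only [brel, map_mul, map_inv, hWw, hjw]
        rw [show FreeGroup.lift f0 (Uw r' (bb r')) = _ from hUw _ _ hT,
          show FreeGroup.lift f0 (Uw (-(r' / bb r')) (1 / bb r')) = _ from hUw _ _ (hT.div_left hb),
          show FreeGroup.lift f0 (Uw (-(r' / bb r' ^ q)) (1 / bb r')) = _ from hUw _ _ (hT.div_right hb),
          mul_inv_eq_one]
        rw [← map_inv]
        exact cell_id _ _ hT hb
  -- the presented group
  let g : Fin 3 → PresentedGroup (↑Rall : Set (FreeGroup (Fin 3))) := PresentedGroup.of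
  let f : PresentedGroup (↑Rall : Set (FreeGroup (Fin 3))) →* Mdl F q := PresentedGroup.toGroup hmem
  have hfg : ∀ i, f (g i) = f0 i := fun i => PresentedGroup.toGroup.of (h := hmem)
  have hflift : ∀ w, f (FreeGroup.lift g w) = FreeGroup.lift f0 w := fun w =>
    DFunLike.congr_fun (FreeGroup.ext_hom (f.comp (FreeGroup.lift g)) (FreeGroup.lift f0)
      fun i => by simp [hfg]) w
  have hrel : ∀ r ∈ Rall, FreeGroup.lift g r = 1 := fun r hr => by
    rw [show FreeGroup.lift g r = PresentedGroup.mk _ r from DFunLike.congr_fun (FreeGroup.ext_hom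
      (FreeGroup.lift g) (PresentedGroup.mk _) fun i => by simp [g]; rfl) r]
    exact PresentedGroup.one_of_mem (Finset.mem_coe.2 hr)
  have hrelL : ∀ r ∈ L, FreeGroup.lift g r = 1 := fun r hr =>
    hrel r (Finset.mem_union_right _ (List.mem_toFinset.2 hr))
  have hψ0 : ∀ r ∈ (↑R : Set (FreeGroup (Fin 3))),
      FreeGroup.lift (fun i => FreeGroup.lift g (ι i)) r = 1 := fun r hr => by
    rw [← lift_comp]
    exact hrel _ (Finset.mem_union_left _ (Finset.mem_image_of_mem _ (Finset.mem_coe.1 hr)))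
  let ψ : SL(2, Fix F q) →* PresentedGroup (↑Rall : Set (FreeGroup (Fin 3))) :=
    (PresentedGroup.toGroup hψ0).comp eSL.symm.toMonoidHom
  have hψlift : ∀ w, ψ (FreeGroup.lift fSL w) = FreeGroup.lift g (FreeGroup.lift ι w) := by
    intro w
    rw [lift_comp]
    refine DFunLike.congr_fun (FreeGroup.ext_hom (ψ.comp (FreeGroup.lift fSL))
      (FreeGroup.lift fun i => FreeGroup.lift g (ι i)) fun i => ?_) w
    simp only [MonoidHom.comp_apply, FreeGroup.lift_apply_of, ψ, MulEquiv.coe_toMonoidHom]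
    rw [show fSL i = eSL (PresentedGroup.of i) from (heSL i).symm, MulEquiv.symm_apply_apply]
    exact PresentedGroup.toGroup.of (h := hψ0)
  have hψ : ∀ i, ψ (fSL i) = FreeGroup.lift g (ι i) := fun i => by
    simpa using hψlift (FreeGroup.of i)
  have hψs : ∀ s, ψ (H92.sx s) = FreeGroup.lift g (zw s) := fun s => by
    rw [← hfSL s]; exact hψlift _
  have hgen : Subgroup.closure ({g 0, g 1, g 2} : Set _) = ⊤ := by
    rw [eq_top_iff, ← PresentedGroup.closure_range_of, Subgroup.closure_le]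
    rintro _ ⟨i, rfl⟩
    refine Subgroup.subset_closure ?_
    fin_cases i <;> simp [g]
  have hfψ : ∀ x, f (ψ x) = slEmb δ hδ0 hδ x := by
    intro x
    obtain ⟨y, rfl⟩ := eSL.surjective x
    obtain ⟨w, rfl⟩ := PresentedGroup.mk_surjective _ y
    have h1 : eSL (PresentedGroup.mk _ w) = FreeGroup.lift fSL w :=
      DFunLike.congr_fun (FreeGroup.ext_hom (eSL.toMonoidHom.comp (PresentedGroup.mk _)) (FreeGroup.lift fSL)
        fun i => by rw [FreeGroup.lift_apply_of]; exact heSL i) w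
    rw [h1, hψlift, hflift, hι]
  have zrel : ∀ w, zfix w ∈ L → ∃ s, FreeGroup.lift g w = ψ (H92.sx s) := fun w hw => by
    have := hrelL _ hw
    rw [map_mul, map_inv, ← hψs, mul_inv_eq_one] at this
    exact ⟨_, this⟩
  have hmid : ∀ r ∈ [gh ^ (q ^ 2 - 1), gt * gh * gt⁻¹ * gh ^ q, gh * zL * gh⁻¹ * (zw N0)⁻¹, zfix (gu ^ p),
      zfix ((gu * cj gu gh e)⁻¹ * cj gu gh e')], r ∈ L := fun r hr => by
    simp only [L, List.mem_append]; exact Or.inl (Or.inl (Or.inr hr))
  have hcen : ∀ s ∈ cseeds, Commute (g 0) (ψ (H92.sx s)) := fun s hs => by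
    have := hrelL (gu * zw s * gu⁻¹ * (zw s)⁻¹) (by
      simp only [L, List.mem_append]; exact Or.inl (Or.inr (List.mem_map_of_mem hs)))
    simp only [map_mul, map_inv, gu, FreeGroup.lift_apply_of, ← hψs, mul_inv_eq_one] at this
    rw [mul_inv_eq_iff_eq_mul] at this
    exact this
  have hN : g 1 ^ (q ^ 2 - 1) = 1 := by
    simpa [gh] using hrelL _ (hmid _ (List.mem_cons_self ..))
  let D0 : Pre (PresentedGroup (↑Rall : Set (FreeGroup (Fin 3)))) F q :=
    { ζ := ζ, hζ := hζ, δ := δ, hδ0 := hδ0, hδ := hδ, b0 := b0, hb0 := hb0, f := f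
      u := g 0, h := g 1, t := g 2, gen := hgen
      fu := hfg 0, fh := hfg 1, hN := hN, ψ := ψ, fψ := hfψ
      ψw := by simpa [fSL, ι, gt] using hψ 2
      a0 := a0, ha0 := ha0, hgen0 := hgen0
      sq_gen := span_of_surjective _ hsq
      inv_gen := span_of_surjective _ hinv
      mu_span := span_of_surjective _ (mu_gen (p := p) ζ hζ h4)
      h1a := h1a, e := e, ζe := he, e' := e', ζe' := he'
      ψh := by simpa [fSL, ι, gh] using hψ 1
      hz := by
        have h0 : ψ (H92.sx 1) = FreeGroup.lift g zL := hψ 0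
        have := hrelL (gh * zL * gh⁻¹ * (zw N0)⁻¹) (hmid _ (by simp))
        simp only [map_mul, map_inv, gh, FreeGroup.lift_apply_of, ← hψs, ← h0, mul_inv_eq_one] at this
        exact this
      tht := by
        have := hrelL (gt * gh * gt⁻¹ * gh ^ q) (hmid _ (by simp))
        simp only [map_mul, map_inv, map_pow, gh, gt, FreeGroup.lift_apply_of] at this
        exact eq_inv_of_mul_eq_one_left this
      comb := by
        obtain ⟨s, hs⟩ := zrel _ (hmid _ (by simp : zfix ((gu * cj gu gh e)⁻¹ * cj gu gh e') ∈ _))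
        simp only [map_mul, map_inv, map_cj, gu, gh, FreeGroup.lift_apply_of] at hs
        exact ⟨s, by rw [← hs]; group⟩
      cen1 := hcen _ (by simp [cseeds]), cen2 := hcen _ (by simp [cseeds])
      cen3 := hcen _ (by simp [cseeds]), cen4 := hcen _ (by simp [cseeds]) }
  -- the quotient of the unipotent part
  let Nz := Subgroup.normalizer (D0.Zs : Set (PresentedGroup (↑Rall : Set (FreeGroup (Fin 3)))))
  let gN : Fin 3 → Nz := ![⟨g 0, D0.u_normalizes⟩, ⟨g 1, D0.h_normalizes⟩, 1]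
  let π : Nz →* Nz ⧸ D0.Zs.subgroupOf Nz := QuotientGroup.mk' _
  have hπ1 : ∀ x : Nz, (∃ s, (x : PresentedGroup _) = D0.Z s) → π x = 1 := fun x hx => by
    obtain ⟨s, hs⟩ := hx
    exact (QuotientGroup.eq_one_iff x).2 (Subgroup.mem_subgroupOf.2 ⟨s, hs.symm⟩)
  have hπlift : ∀ w, FreeGroup.lift (fun i => π (gN i)) w = π (FreeGroup.lift gN w) := fun w =>
    DFunLike.congr_fun (FreeGroup.ext_hom (FreeGroup.lift fun i => π (gN i)) (π.comp (FreeGroup.lift gN))
      fun i => by simp) w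
  have hNlift : ∀ w, ((FreeGroup.lift gN w : Nz) : PresentedGroup _) =
      FreeGroup.lift g (FreeGroup.lift ![gu, gh, 1] w) := fun w => by
    rw [lift_comp]
    refine DFunLike.congr_fun (FreeGroup.ext_hom (Nz.subtype.comp (FreeGroup.lift gN))
      (FreeGroup.lift fun i => FreeGroup.lift g ((![gu, gh, 1] : Fin 3 → FreeGroup (Fin 3)) i)) fun i => ?_) w
    simp only [MonoidHom.comp_apply, FreeGroup.lift_apply_of]
    fin_cases i <;> simp [gN, gu, gh]
  obtain ⟨φ, hφ⟩ := hEphi (Nz ⧸ D0.Zs.subgroupOf Nz) (fun i => π (gN i))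
    (by
      rw [← map_pow]
      refine hπ1 _ ?_
      obtain ⟨s, hs⟩ := zrel _ (hmid _ (by simp : zfix (gu ^ p) ∈ _))
      exact ⟨s, (by simpa [gN, gu] using hs : _ = ψ (H92.sx s))⟩)
    (by
      rw [← map_pow]
      exact hπ1 _ ⟨0, by rw [D0.Z_zero]; simpa [gN] using hN⟩)
    (by
      have hcom : π (gN 0 * cj (gN 0) (gN 1) k * (gN 0)⁻¹ * (cj (gN 0) (gN 1) k)⁻¹) = 1 := by
        refine hπ1 _ ⟨1, ?_⟩
        have h0 : ψ (H92.sx 1) = FreeGroup.lift g zL := hψ 0
        show _ = ψ (H92.sx 1)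
        rw [h0]
        simp [zL, gN, gu, gh, cj]
      rw [map_mul, map_inv, mul_inv_eq_one, map_mul, map_inv, map_mul, mul_inv_eq_iff_eq_mul, map_cj] at hcom
      exact hcom)
    (fun r hr => by
      rw [hπlift]
      refine hπ1 _ ?_
      obtain ⟨s, hs⟩ := zrel (FreeGroup.lift ![gu, gh, 1] r) (by
        simp only [L, E', List.mem_append]
        exact Or.inl (Or.inl (Or.inl (List.mem_map_of_mem hr))))
      exact ⟨s, (hNlift r).trans hs⟩)
  let Lf : F → PresentedGroup (↑Rall : Set (FreeGroup (Fin 3))) := fun a => ((φ a).out : Nz)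
  have hout : ∀ a, π (φ a).out = φ a := fun a => QuotientGroup.out_eq' (φ a)
  have hmod : ∀ x y : Nz, π x = π y → ∃ s, (x : PresentedGroup _) = (y : PresentedGroup _) * D0.Z s := by
    intro x y hxy
    obtain ⟨s, hs⟩ := Subgroup.mem_subgroupOf.1 (QuotientGroup.eq.1 hxy.symm)
    refine ⟨s, ?_⟩
    rw [hs]
    push_cast
    rw [mul_inv_cancel_left]
  let D : Full (PresentedGroup (↑Rall : Set (FreeGroup (Fin 3)))) F q :=
    { D0 with
      L := Lf
      L0 := by
        obtain ⟨s, hs⟩ := hmod (φ 0).out 1 (by rw [hout, hφ.zero, map_one])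
        exact ⟨s, by simpa using hs⟩
      Ladd := fun a a' => by
        obtain ⟨s, hs⟩ := hmod ((φ a).out * (φ a').out) (φ (a + a')).out
          (by rw [map_mul, hout, hout, hout, hφ.add])
        exact ⟨s, by simpa using hs⟩
      Lone := by
        obtain ⟨s, hs⟩ := hmod (gN 0) (φ 1).out (by rw [hout, hφ.one])
        exact ⟨s, hs⟩
      Lconj := fun a => by
        obtain ⟨s, hs⟩ := hmod (gN 1 * (φ a).out * (gN 1)⁻¹) (φ (mu q (ζ : F) * a)).out
          (by rw [map_mul, map_mul, map_inv, hout, hout, hφ.conj])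
        refine ⟨s, ?_⟩
        simpa [gN] using hs }
  -- lifts of the words
  have hinUwd : ∀ Pp : (ZMod p)[X], D.InU (wd (g 0) (g 1) Pp) := by
    intro Pp
    rw [wd]
    generalize Pp.natDegree + 1 = n
    induction n with
    | zero => simpa using D.inU_one
    | succ n ih =>
      rw [List.range_succ, List.map_append, List.prod_append]
      refine Full.InU.mul D ih ?_
      simp only [List.map_cons, List.map_nil, List.prod_cons, List.prod_nil, mul_one]
      have hc : D.InU (cj (g 0) (g 1) n) := by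
        have := Full.InU.conj D D.inU_u (ζ ^ n)
        have hg : D.toPre.H ζ = g 1 := D.toPre.H_gen
        rw [map_pow, hg] at this
        exact this
      induction (Pp.coeff n).val with
      | zero => simpa using D.inU_one
      | succ i ih2 => rw [pow_succ]; exact Full.InU.mul D ih2 hc
  have hUlift : ∀ a b, Tz q a b → FreeGroup.lift g (Uw a b) = D.U a b := fun a b h => by
    refine D.U_eq ?_ h ((hflift _).trans (hUw a b h))
    simp only [Uw, map_mul, ← hψs]
    refine Full.InU.mul D ?_ (D.inU_Z _)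
    simp only [map_wd, gu, gh, FreeGroup.lift_apply_of]
    exact hinUwd _
  have seed : ∀ a : F, a ≠ 0 → ∃ (c : Fˣ) (r : F), a = mu q (c : F) * r ∧ D.Node ρ r := by
    intro a ha
    obtain ⟨i, rfl⟩ := hlog a ha
    have hz : ((ζ : F) ^ (i / 3)) ≠ 0 := pow_ne_zero _ ζ.ne_zero
    refine ⟨Units.mk0 _ (mul_ne_zero (mul_ne_zero hz (pow_ne_zero q hz)) (pow_ne_zero q hz)),
      (ζ : F) ^ (i % 3), ?_, ?_⟩
    · rw [Units.val_mk0, cube_mu hz, ← pow_mul, ← pow_add, Nat.div_add_mod']
    have hr : (ζ : F) ^ (i % 3) ∈ reps := by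
      have := Nat.mod_lt i (show 3 > 0 by omega)
      interval_cases h : i % 3 <;> simp [reps]
    generalize (ζ : F) ^ (i % 3) = r at hr ⊢
    have hne := hreps r hr
    have hT : Tz q r (bb r) := Full.node_Tz hρ hρ1
    have hb : bb r ≠ 0 := div_ne_zero (mul_ne_zero hne (pow_ne_zero _ hne)) (sub_ne_zero.2 hρ1)
    have := hrelL (brel r) (by simp only [L, List.mem_append]; exact Or.inr (List.mem_map_of_mem hr))
    have hW : FreeGroup.lift g Ww = D.W := by
      simp only [Ww, map_mul, map_pow, gt, gh, FreeGroup.lift_apply_of, Full.W]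
      have hg : D.toPre.H ζ = g 1 := D.toPre.H_gen
      rw [← hg, ← map_pow]
      congr 2
      exact Units.ext (by simp [Full.dW, heW, D, D0])
    simp only [brel, map_mul, map_inv, hW, mul_inv_eq_one, hUlift _ _ hT, hUlift _ _ (hT.div_left hb),
      hUlift _ _ (hT.div_right hb), map_pow, gh, FreeGroup.lift_apply_of] at this
    refine ⟨_, _, ?_, D.inU_U (-(r / bb r ^ q)) (1 / bb r), this⟩
    have hg : D.toPre.H ζ = g 1 := D.toPre.H_gen
    rw [← hg, ← map_pow]
    exact Full.InU.mul_H D (D.inU_U _ _) _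
  exact ⟨Rall, hcardR, ⟨MulEquiv.ofBijective f (D.bijective hρo seed)⟩⟩

end Cfsg.Agent.H81.SU3Pres
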