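import Cfsg.Agent.H81.SU3Pres.Model
import Cfsg.Agent.H81.SLPresMain

/-!
# The relations making the unipotent group of `SU₃(q)` abelian modulo the centre
-/

set_option autoImplicit false

namespace Cfsg.Agent.H81.SU3Pres

open Polynomial SLPres

/-- A polynomial relation and few commutations suffice. -/
theorem short_phi {F : Type*} [Field F] {p : ℕ} [Fact p.Prime] [Algebra (ZMod p) F] [Fintype F]
    (b : F) (hb : Function.Surjective (Polynomial.aeval (R := ZMod p) b)) {X : Type*} [Group X] (u h : X)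
    (hu : u ^ p = 1)
    (hc : ∀ i, i < (minpoly (ZMod p) b).natDegree → Commute u (cj u h i))
    (hm : wd u h (minpoly (ZMod p) b) = 1) : ∃ φ : F → X, IsPhi b u h φ := by
  have hint : IsIntegral (ZMod p) b := IsIntegral.of_finite (ZMod p) b
  set n := (minpoly (ZMod p) b).natDegree with hn
  have hpos : 0 < n := minpoly.natDegree_pos hint
  let S : Set X := {x | ∃ i < n, x = cj u h i}
  have hS : ∀ x ∈ S, ∀ y ∈ S, x * y = y * x := by
    have main : ∀ i l : ℕ, i ≤ l → l < n → Commute (cj u h i) (cj u h l) := by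
      intro i l hil hl
      obtain ⟨d, rfl⟩ := Nat.exists_eq_add_of_le hil
      have := hc d (by omega)
      rw [cj_add]
      show cj u h i * _ = _ * cj u h i
      calc cj u h i * (h ^ i * cj u h d * (h ^ i)⁻¹) = h ^ i * (u * cj u h d) * (h ^ i)⁻¹ := by
            simp only [cj]; group
        _ = h ^ i * (cj u h d * u) * (h ^ i)⁻¹ := by rw [this.eq]
        _ = _ := by simp only [cj]; group
    rintro _ ⟨i, hi, rfl⟩ _ ⟨l, hl, rfl⟩
    rcases Nat.le_total i l with hle | hle
    · exact main i l hle hl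
    · exact (main l i hle hi).symm
  have hpS : ∀ x ∈ S, x ^ p = 1 := by
    rintro _ ⟨i, _, rfl⟩
    simp [cj, conj_pow, hu]
  have hmem : ∀ i < n, cj u h i ∈ Subgroup.closure S := fun i hi =>
    Subgroup.subset_closure ⟨i, hi, rfl⟩
  refine exists_isPhi b hb u h _ (closure_comm hS) (closure_pow_eq_one hS hpS)
    (by simpa [cj_zero] using hmem 0 hpos) (closure_conj_mem h ?_) hm
  rintro _ ⟨i, hi, rfl⟩
  rw [← cj_succ]
  rcases Nat.lt_or_ge (i + 1) n with hlt | hge
  · exact hmem _ hlt
  · have e : i + 1 = n := by omega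
    rw [e]
    have hm' := hm
    rw [wd, List.range_succ, List.map_append, List.prod_append] at hm'
    have hlead : (minpoly (ZMod p) b).coeff n = 1 := (minpoly.monic hint).coeff_natDegree
    simp [← hn, hlead, ZMod.val_one] at hm'
    rw [eq_inv_of_mul_eq_one_right hm']
    refine inv_mem (Subgroup.list_prod_mem _ fun z hz => ?_)
    obtain ⟨l, hl, rfl⟩ := List.mem_map.1 hz
    exact pow_mem (hmem l (List.mem_range.1 hl)) _

variable {F : Type*} [Field F] {q : ℕ} [Fintype F] [hq : Fact (Fintype.card F = q ^ 2)]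

include hq in
theorem pow_card_sub {x : F} (hx : x ≠ 0) : x ^ (q ^ 2 - 1) = 1 := by
  rw [← hq.out]; exact FiniteField.pow_card_sub_one_eq_one x hx

/-- Membership in the unipotent group, with the first parameter. -/
def IsU (a : F) (x : Mdl F q) : Prop := ∃ (b : F) (h : Tz q a b), x = uM a b h

theorem IsU.one : IsU (0 : F) (1 : Mdl F q) := ⟨0, Tz.zero, uM_zero.symm⟩

theorem IsU.mul {a a' : F} {x y : Mdl F q} (hx : IsU a x) (hy : IsU a' y) : IsU (a + a') (x * y) := by
  obtain ⟨b, h, rfl⟩ := hx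
  obtain ⟨b', h', rfl⟩ := hy
  exact ⟨_, _, uM_mul a b a' b' h h'⟩

theorem IsU.inv {a : F} {x : Mdl F q} (hx : IsU a x) : IsU (-a) x⁻¹ := by
  obtain ⟨b, h, rfl⟩ := hx
  exact ⟨_, _, uM_inv a b h⟩

theorem IsU.pow {a : F} {x : Mdl F q} (hx : IsU a x) (n : ℕ) : IsU (n • a) (x ^ n) := by
  induction n with
  | zero => simpa using IsU.one
  | succ n ih => rw [succ_nsmul, pow_succ]; exact ih.mul hx

theorem IsU.cj {a : F} {x : Mdl F q} (hx : IsU a x) (ζ : Fˣ) (i : ℕ) :
    IsU (mu q (ζ : F) ^ i * a) (SLPres.cj x (hM ζ) i) := by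
  obtain ⟨b, h, rfl⟩ := hx
  have e : mu q (ζ : F) ^ i = mu q ((ζ ^ i : Fˣ) : F) := by rw [Units.val_pow_eq_pow_val, mu_pow]
  rw [e]
  exact ⟨_, h.conj (ζ ^ i).ne_zero, by rw [SLPres.cj, ← map_pow]; exact hM_uM _ a b h⟩

theorem IsU.wd {p : ℕ} [Fact p.Prime] [Algebra (ZMod p) F] {x : Mdl F q} (hx : IsU (1 : F) x) (ζ : Fˣ)
    (P : (ZMod p)[X]) : IsU (Polynomial.aeval (mu q (ζ : F)) P) (SLPres.wd x (hM ζ) P) := by
  rw [SLPres.wd, Polynomial.aeval_eq_sum_range]
  generalize P.natDegree + 1 = n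
  induction n with
  | zero => simpa using IsU.one
  | succ n ih =>
    rw [Finset.sum_range_succ, List.range_succ, List.map_append, List.prod_append]
    refine ih.mul ?_
    have := (hx.cj ζ n).pow (P.coeff n).val
    rw [mul_one] at this
    simp only [List.map_cons, List.map_nil, List.prod_cons, List.prod_nil, mul_one]
    rwa [← Nat.cast_smul_eq_nsmul (ZMod p), ZMod.natCast_zmod_val] at this

include hq in
theorem sq_one_sub : q ^ 2 - 1 = (q - 1) * (q + 1) := by
  obtain ⟨r, rfl⟩ : ∃ r, q = r + 1 := ⟨q - 1, by have := H3.two_le_q hq.out; omega⟩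
  rw [Nat.add_sub_cancel, Nat.sub_eq_iff_eq_add (Nat.one_le_pow _ _ (by omega))]; ring

variable {p : ℕ} [Fact p.Prime] [Algebra (ZMod p) F] [CharP F p]
variable (ζ : Fˣ) (hζ : orderOf ζ = q ^ 2 - 1)
include hζ

omit [CharP F p] in
theorem mu_gen (h4 : 4 ≤ q) : Function.Surjective (Polynomial.aeval (R := ZMod p) (mu q (ζ : F))) := by
  rcases gen_or_small (p := p) (mu q (ζ : F)) with h | ⟨d, hQ2, hd, hx⟩
  · exact h
  · exfalso
    rw [hq.out, ← pow_two, Nat.pow_le_pow_iff_left (by norm_num)] at hd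
    set c : F := ((ζ ^ (p ^ d - 1) : Fˣ) : F) with hc
    have hc0 : c ≠ 0 := Units.ne_zero _
    have h1 : mu q c = 1 := by
      rw [hc, Units.val_pow_eq_pow_val, mu_pow]
      refine mul_right_cancel₀ (mu_ne (q := q) ζ.ne_zero) ?_
      rw [← pow_succ, Nat.sub_add_cancel (by omega), hx, one_mul]
    rw [mu, div_eq_one_iff_eq hc0] at h1
    have h2 : c * c = c ^ q := by
      have := congrArg (· ^ q) h1
      simpa [mul_pow, pq_pq] using this
    have h3 : c ^ 3 = 1 := by
      rw [← h2] at h1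
      exact mul_right_cancel₀ hc0 (by linear_combination h1)
    have h5 : ζ ^ (3 * (p ^ d - 1)) = 1 := by
      rw [mul_comm, pow_mul]
      exact Units.ext (by simpa [hc] using h3)
    have := orderOf_le_of_pow_eq_one (by omega) h5
    rw [hζ] at this
    have : 4 * q ≤ q ^ 2 := by rw [pow_two]; exact Nat.mul_le_mul_right q h4
    omega

omit [Algebra (ZMod p) F] [Fact p.Prime] [CharP F p] in
theorem eq_mu_pow {c : F} (hc : c ≠ 0) : ∃ i : ℕ, mu q c = mu q (ζ : F) ^ i := by
  classical
  have hz : Subgroup.zpowers ζ = ⊤ := by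
    refine Subgroup.eq_top_of_card_eq _ ?_
    rw [Nat.card_zpowers, hζ, Nat.card_eq_fintype_card, Fintype.card_units, hq.out]
  obtain ⟨i, hi⟩ := mem_powers_iff_mem_zpowers.2 (hz ▸ Subgroup.mem_top (Units.mk0 c hc))
  refine ⟨i, ?_⟩
  have : c = (ζ : F) ^ i := by simpa using (congrArg Units.val hi).symm
  rw [this, mu_pow]

omit hζ [Algebra (ZMod p) F] [Fact p.Prime] [CharP F p] in
theorem cube_mu {z : F} (hz : z ≠ 0) : mu q (z * z ^ q * z ^ q) = z ^ 3 := by
  have : z ^ q ≠ 0 := pow_ne_zero _ hz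
  unfold mu
  simp only [mul_pow, pq_pq]
  field_simp

omit [CharP F p] in
/-- The field element used to make the unipotent group abelian modulo the centre. -/
theorem exists_x (h4 : 4 ≤ q) (h5 : q ≠ 5) (h8 : q ≠ 8) :
    ∃ k j : ℕ, 0 < k ∧ mu q (ζ : F) ^ j = 1 + mu q (ζ : F) ^ k ∧
      Function.Surjective (Polynomial.aeval (R := ZMod p) (mu q (ζ : F) ^ k)) := by
  classical
  have hN : 0 < q ^ 2 - 1 := by
    have : 4 * q ≤ q ^ 2 := by rw [pow_two]; exact Nat.mul_le_mul_right q h4
    omega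
  suffices ∃ x : F, (∃ v : F, v ≠ 0 ∧ mu q v = x) ∧ (∃ v : F, v ≠ 0 ∧ mu q v = 1 + x) ∧
      Function.Surjective (Polynomial.aeval (R := ZMod p) x) by
    obtain ⟨x, ⟨v, hv, rfl⟩, ⟨v', hv', e'⟩, hx⟩ := this
    obtain ⟨k, hk⟩ := eq_mu_pow ζ hζ hv
    obtain ⟨j, hj⟩ := eq_mu_pow ζ hζ hv'
    have hk' : mu q (ζ : F) ^ (k + (q ^ 2 - 1)) = mu q v := by
      rw [pow_add, pow_card_sub (mu_ne ζ.ne_zero), mul_one, hk]
    refine ⟨k + (q ^ 2 - 1), j, by omega, ?_, ?_⟩
    · rw [hk', ← hj, e']
    · rwa [hk']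
  by_cases h3 : q % 3 = 2
  · -- the cubes form a proper subgroup
    set w : F := (ζ : F) ^ (q - 1) with hw
    set ω := w ^ 3 with hω
    have hw0 : w ≠ 0 := pow_ne_zero _ ζ.ne_zero
    have hw1 : w ^ q * w = 1 := by
      rw [← pow_succ, hw, ← pow_mul, ← sq_one_sub (F := F)]
      exact pow_card_sub ζ.ne_zero
    have hωq : ω ^ q * ω = 1 := by rw [hω, ← pow_mul, mul_comm 3, pow_mul, ← mul_pow, hw1, one_pow]
    have hord : orderOf ω * 3 = q + 1 := by
      have e1 : orderOf ω = orderOf (ζ ^ ((q - 1) * 3)) := by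
        rw [← orderOf_units, Units.val_pow_eq_pow_val, pow_mul, hω, hw]
      have hd : (q - 1) * 3 ∣ q ^ 2 - 1 := by
        rw [sq_one_sub (F := F)]
        exact Nat.mul_dvd_mul_left _ (by omega)
      rw [e1, orderOf_pow' _ (by omega), hζ, Nat.gcd_eq_right hd, sq_one_sub (F := F),
        Nat.mul_div_mul_left _ _ (by omega)]
      exact Nat.div_mul_cancel (by omega)
    have hy : 1 + ω ≠ 0 := fun h => by
      have : ω ^ 2 = 1 := by linear_combination (ω - 1) * h
      have := orderOf_le_of_pow_eq_one two_pos this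
      omega
    have hz : w ^ 2 ≠ 0 := pow_ne_zero _ hw0
    have hy' : mu q ((1 + ω) * (w ^ 2 * (w ^ 2) ^ q * (w ^ 2) ^ q)) = 1 + ω := by
      rw [mu_mul, cube_mu hz, mu, pq_add, one_pow]
      field_simp
      rw [show w ^ 6 = ω ^ 2 by rw [hω]; ring]
      linear_combination ((1 + ω ^ q) * ω + (1 + ω)) * hωq
    refine ⟨-ω / (1 + ω), ⟨(-w * (-w) ^ q * (-w) ^ q) /
      ((1 + ω) * (w ^ 2 * (w ^ 2) ^ q * (w ^ 2) ^ q)), ?_, ?_⟩,
      ⟨1 / ((1 + ω) * (w ^ 2 * (w ^ 2) ^ q * (w ^ 2) ^ q)), ?_, ?_⟩, ?_⟩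
    · simp [hw0, hy]
    · have hne : (1 + ω) * (w ^ 2 * (w ^ 2) ^ q * (w ^ 2) ^ q) ≠ 0 := by simp [hw0, hy]
      rw [eq_div_iff hy]
      conv_lhs => arg 2; rw [← hy']
      rw [← mu_mul, div_mul_cancel₀ _ hne, cube_mu (neg_ne_zero.2 hw0), hω]
      ring
    · simp [hw0, hy]
    · have hne : (1 + ω) * (w ^ 2 * (w ^ 2) ^ q * (w ^ 2) ^ q) ≠ 0 := by simp [hw0, hy]
      have e : 1 + -ω / (1 + ω) = 1 / (1 + ω) := by field_simp; ring
      rw [e, eq_div_iff hy]
      conv_lhs => arg 2; rw [← hy']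
      rw [← mu_mul, div_mul_cancel₀ _ hne, mu_one]
    · rcases gen_or_small (p := p) (-ω / (1 + ω)) with h | ⟨d, hQ2, hd, hx⟩
      · exact h
      · exfalso
        rw [hq.out, ← pow_two, Nat.pow_le_pow_iff_left (by norm_num)] at hd
        haveI : CharP F p := charP_of_injective_algebraMap (algebraMap (ZMod p) F).injective p
        let σ : F →+* F := iterateFrobenius F p d
        have hσ : ∀ z : F, σ z = z ^ p ^ d := fun z => by simp [σ, iterateFrobenius_def]
        set x := -ω / (1 + ω) with hxd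
        have hω' : ω = -x / (1 + x) := by
          rw [hxd]; field_simp; ring
        have : σ ω = ω := by
          rw [hω', map_div₀, map_neg, map_add, map_one, hσ x, hx]
        rw [hσ] at this
        have h1 : ω ^ (p ^ d - 1) = 1 := by
          refine mul_right_cancel₀ (pow_ne_zero 3 hw0) ?_
          rw [← pow_succ, Nat.sub_add_cancel (by omega), one_mul]
          exact this
        obtain ⟨m, hm⟩ := orderOf_dvd_of_pow_eq_one h1
        obtain ⟨p', f, hp', -, -, hqf⟩ := H3.exists_q_eq_pow hq.out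
        haveI : Fact p'.Prime := ⟨hp'⟩
        obtain rfl : p = p' := by
          obtain ⟨n, _, hn⟩ := FiniteField.card F p
          have : (p : ℕ) ∣ p' ^ (f * 2) := by
            rw [pow_mul, ← hqf, ← hq.out, hn]; exact dvd_pow_self _ n.pos.ne'
          exact (Nat.prime_dvd_prime_iff_eq Fact.out hp').1 ((Fact.out : p.Prime).dvd_of_dvd_pow this)
        rw [hqf] at hd
        have hdf : d ≤ f := (Nat.pow_le_pow_iff_right (Fact.out : p.Prime).one_lt).1 hd
        obtain ⟨e, rfl⟩ := Nat.exists_eq_add_of_le hdf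
        rw [pow_add] at hqf
        generalize p ^ d = Q at *
        generalize orderOf ω = n at *
        subst hqf
        have he1 : 1 ≤ p ^ e := Nat.one_le_pow e p (Fact.out : p.Prime).pos
        generalize p ^ e = r at *
        have hQ1 : 1 + n * m = Q := by omega
        have hm0 : m ≠ 0 := by rintro rfl; omega
        rcases Nat.lt_or_ge r 2 with hr | hr
        · obtain rfl : r = 1 := by omega
          rw [mul_one] at hord h4 h5
          rcases Nat.lt_or_ge m 3 with hm3 | hm3
          · interval_cases m <;> omega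
          · have := Nat.mul_le_mul_left n hm3
            omega
        · have h2r := Nat.mul_le_mul_left Q hr
          rcases Nat.lt_or_ge m 2 with hm2 | hm2
          · obtain rfl : m = 1 := by omega
            rcases Nat.lt_or_ge r 3 with hr3 | hr3
            · obtain rfl : r = 2 := by omega
              omega
            · have := Nat.mul_le_mul_left Q hr3
              omega
          · have := Nat.mul_le_mul_left n hm2
            omega
  · -- the multiplier is bijective
    have hinj : ∀ c : Fˣ, mu q (c : F) = 1 → c = 1 := by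
      intro c hc
      have hc0 := c.ne_zero
      rw [mu, div_eq_one_iff_eq hc0] at hc
      have h2 : (c : F) * c = (c : F) ^ q := by simpa [mul_pow, pq_pq] using congrArg (· ^ q) hc
      have h3' : (c : F) ^ 3 = 1 := by
        rw [← h2] at hc
        exact mul_right_cancel₀ hc0 (by linear_combination hc)
      apply Units.ext
      rcases (show q % 3 = 0 ∨ q % 3 = 1 by omega) with h | h
      · -- characteristic three
        have h30 : (3 : F) = 0 := by
          have e : ((q ^ 2 : ℕ) : F) = 0 := by rw [← hq.out]; exact FiniteField.cast_card_eq_zero F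
          obtain ⟨p', f, hp', hc', hf, hqf⟩ := H3.exists_q_eq_pow hq.out
          have : p' = 3 := by
            have : 3 ∣ p' ^ f := hqf ▸ Nat.dvd_of_mod_eq_zero h
            exact ((Nat.prime_dvd_prime_iff_eq Nat.prime_three hp').1 (Nat.prime_three.dvd_of_dvd_pow this)).symm
          subst this
          exact_mod_cast CharP.cast_eq_zero F 3
        have : ((c : F) - 1) ^ 3 = 0 := by
          linear_combination h3' + ((c : F) - (c : F) ^ 2) * h30
        simpa using sub_eq_zero.1 (eq_zero_of_pow_eq_zero this)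
      · have hcq : (c : F) ^ q = c := by
          conv_lhs => rw [← Nat.div_add_mod q 3, h, pow_succ, pow_mul, h3', one_pow, one_mul]
        rw [hcq] at h2
        simpa using mul_right_cancel₀ hc0 (h2.trans (one_mul _).symm)
    let m : Fˣ →* Fˣ :=
      { toFun := fun c => Units.mk0 (mu q (c : F)) (mu_ne c.ne_zero)
        map_one' := Units.ext (by simp [mu_one])
        map_mul' := fun c d => Units.ext (by simp [mu_mul]) }
    have hm : Function.Surjective m := Finite.injective_iff_surjective.1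
      ((injective_iff_map_eq_one m).2 fun c hc => hinj c (by simpa [m] using congrArg Units.val hc))
    obtain ⟨a, ha⟩ := mu_gen (p := p) ζ hζ h4 (mu q (ζ : F))
    have hsur : ∀ c : F, c ≠ 0 → ∃ v : F, v ≠ 0 ∧ mu q v = c := fun c hc => by
      obtain ⟨v, hv⟩ := hm (Units.mk0 c hc)
      exact ⟨v, v.ne_zero, by simpa [m] using congrArg Units.val hv⟩
    refine ⟨mu q (ζ : F), hsur _ (mu_ne ζ.ne_zero), hsur _ fun h => ?_, mu_gen ζ hζ h4⟩
    have e : mu q (ζ : F) = -1 := by linear_combination h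
    have hsq : mu q ((ζ ^ 2 : Fˣ) : F) = 1 := by rw [Units.val_pow_eq_pow_val, mu_pow, e]; ring
    have := orderOf_le_of_pow_eq_one two_pos (hinj _ hsq)
    rw [hζ] at this
    have : 4 * q ≤ q ^ 2 := by rw [pow_two]; exact Nat.mul_le_mul_right q h4
    omega

/-- The extra relations. -/
theorem exists_choice (h4 : 4 ≤ q) (h5 : q ≠ 5) :
    ∃ (k : ℕ) (E : List (FreeGroup (Fin 3))), E.length ≤ 5 ∧ (q ≠ 8 → E.length ≤ 2) ∧
      (mu q (ζ : F) ^ k) ^ q ≠ mu q (ζ : F) ^ k ∧
      (∀ f : Fin 3 → Mdl F q, IsU (1 : F) (f 0) → f 1 = hM ζ → ∀ r ∈ E, IsU 0 (FreeGroup.lift f r)) ∧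
      ∀ (Y : Type) [Group Y] (g : Fin 3 → Y), g 0 ^ p = 1 → g 1 ^ (q ^ 2 - 1) = 1 →
        Commute (g 0) (SLPres.cj (g 0) (g 1) k) → (∀ r ∈ E, FreeGroup.lift g r = 1) →
        ∃ φ : F → Y, IsPhi (mu q (ζ : F)) (g 0) (g 1) φ := by
  classical
  have hb := mu_gen (p := p) ζ hζ h4
  have notfix : ∀ x : F, Function.Surjective (Polynomial.aeval (R := ZMod p) x) → x ^ q ≠ x := by
    intro x hx h
    obtain ⟨z, hz⟩ := H3.exists_conj_ne hq.out
    obtain ⟨P, rfl⟩ := hx z
    apply hz
    rw [← H3.conjQ_apply hq.out, Polynomial.aeval_eq_sum_range, map_sum]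
    refine Finset.sum_congr rfl fun i _ => ?_
    rw [← ZMod.natCast_zmod_val (P.coeff i), Nat.cast_smul_eq_nsmul, map_nsmul, map_pow,
      H3.conjQ_apply, h]
  by_cases h8 : q = 8
  · obtain ⟨p', f', hp', hc', -, hqf⟩ := H3.exists_q_eq_pow hq.out
    have hp2 : p = 2 := by
      have : p' = 2 := by
        have : 2 ∣ p' ^ f' := hqf ▸ ⟨4, h8⟩
        exact ((Nat.prime_dvd_prime_iff_eq Nat.prime_two hp').1 (Nat.prime_two.dvd_of_dvd_pow this)).symm
      subst this
      exact CharP.eq F (charP_of_injective_algebraMap (algebraMap (ZMod p) F).injective p) hc'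
    subst hp2
    let E : List (FreeGroup (Fin 3)) :=
      SLPres.wd gu gh (minpoly (ZMod 2) (mu q (ζ : F))) ::
        (List.range 4).map fun i => gu * SLPres.cj gu gh (i + 2) * gu⁻¹ * (SLPres.cj gu gh (i + 2))⁻¹
    refine ⟨1, E, by simp [E], fun h => absurd h8 h, by rw [pow_one]; exact notfix _ hb, ?_, ?_⟩
    · intro f hf hf1 r hr
      simp only [E, List.mem_cons, List.mem_map, List.mem_range] at hr
      rcases hr with rfl | ⟨i, -, rfl⟩
      · have := hf.wd (p := 2) ζ (minpoly (ZMod 2) (mu q (ζ : F)))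
        rw [minpoly.aeval] at this
        simpa [map_wd, gu, gh, hf1] using this
      · have h1 := hf.cj ζ (i + 2)
        have := ((hf.mul h1).mul hf.inv).mul h1.inv
        simp only [map_mul, map_inv, map_cj, gu, gh, FreeGroup.lift_apply_of, hf1]
        simpa using this
    · intro Y _ g hu _ hk hE
      simp only [E, List.mem_cons, forall_eq_or_imp, List.mem_map, List.mem_range] at hE
      obtain ⟨hm, hc⟩ := hE
      refine short_phi _ hb (g 0) (g 1) hu (fun i hi => ?_) (by simpa [map_wd, gu, gh] using hm)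
      have : Module.Finite (ZMod 2) F := Module.Finite.of_finite
      have hdeg : i < 6 := by
        have h1 := minpoly.natDegree_le (A := ZMod 2) (mu q (ζ : F))
        have h2 : Fintype.card F = 2 ^ Module.finrank (ZMod 2) F := by
          rw [Module.card_eq_pow_finrank (K := ZMod 2), ZMod.card]
        rw [hq.out, h8, show 8 ^ 2 = 2 ^ 6 from rfl] at h2
        have := Nat.pow_right_injective le_rfl h2
        omega
      rcases i with _ | _ | i
      · simp [cj_zero]
      · simpa using hk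
      · have := hc _ ⟨i, by omega, rfl⟩
        simp only [map_mul, map_inv, map_cj, gu, gh, FreeGroup.lift_apply_of, mul_inv_eq_one,
          mul_inv_eq_iff_eq_mul, one_mul] at this
        exact this
  · obtain ⟨k, j, hk, hj, hxs⟩ := exists_x (p := p) ζ hζ h4 h5 h8
    have hN : ((q ^ 2 - 1 : ℕ) : F) ≠ 0 := by
      rw [Nat.cast_sub (Nat.one_le_pow _ _ (by omega)), ← hq.out, FiniteField.cast_card_eq_zero]
      simp
    have hx1 : (mu q (ζ : F) ^ k) ^ (q ^ 2 - 1) = 1 :=
      pow_card_sub (pow_ne_zero _ (mu_ne ζ.ne_zero))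
    obtain ⟨P, hP, hX⟩ := big_phi (mu q (ζ : F)) (mu q (ζ : F) ^ k) k j (q ^ 2 - 1) hk hN hx1 hb hxs
    let E : List (FreeGroup (Fin 3)) := [SLPres.cj gu gh j * (gu * SLPres.cj gu gh k)⁻¹,
      SLPres.cj gu gh 1 * (SLPres.wd gu gh (Polynomial.expand (ZMod p) k P))⁻¹]
    refine ⟨k, E, by simp [E], fun _ => by simp [E], notfix _ hxs, ?_, ?_⟩
    · intro f hf hf1 r hr
      simp only [E, List.mem_cons, List.not_mem_nil, or_false] at hr
      rcases hr with rfl | rfl
      · have := (hf.cj ζ j).mul (hf.mul (hf.cj ζ k)).inv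
        simp only [map_mul, map_inv, map_cj, gu, gh, FreeGroup.lift_apply_of, hf1]
        rw [mul_one, mul_one, hj, add_neg_cancel] at this
        simpa using this
      · have := (hf.cj ζ 1).mul (hf.wd ζ (Polynomial.expand (ZMod p) k P)).inv
        simp only [map_mul, map_inv, map_cj, map_wd, gu, gh, FreeGroup.lift_apply_of, hf1]
        rw [Polynomial.expand_aeval, hP, mul_one, pow_one, add_neg_cancel] at this
        exact this
    · intro Y _ g hu hh hck hE
      simp only [E, List.mem_cons, List.not_mem_nil, or_false, forall_eq_or_imp, forall_eq] at hE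
      simp only [map_mul, map_inv, map_cj, map_wd, gu, gh, FreeGroup.lift_apply_of, mul_inv_eq_one] at hE
      exact hX Y (g 0) (g 1) hu hh hck hE.1 hE.2

end Cfsg.Agent.H81.SU3Pres
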