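import Cfsg.Agent.H81.SU3Pres.Assemble
import Cfsg.Agent.H81.SLnPres.PresTools
import Cfsg.Agent.H3.Isotropic

/-!
# Presentations of `SU₃(q)` and `PSU₃(q)`
-/

set_option autoImplicit false

namespace Cfsg.Agent.H81.SU3Pres

open Cfsg Matrix

variable {F : Type*} [Field F] [Fintype F]

/-- The centre of `SU₃(q)` is cyclic. -/
theorem center_cyclic {q : ℕ} (hF : Fintype.card F = q ^ 2) :
    ∃ z, Subgroup.center (SU 3 F q) = Subgroup.zpowers z := by
  classical
  let φ : Subgroup.center (SU 3 F q) →* F :=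
    { toFun := fun g => ((g.1.1 : SpecialLinearGroup (Fin 3) F) : Matrix (Fin 3) (Fin 3) F) 0 0
      map_one' := by simp
      map_mul' := fun g g' => by
        obtain ⟨l, hl⟩ := (H3.mem_center_SU_iff hF (by omega) g.1).1 g.2
        have h := congrFun (hl fun i => ((g'.1.1 : SpecialLinearGroup (Fin 3) F) : Matrix (Fin 3) (Fin 3) F) i 0) 0
        have h1 := congrFun (hl (Pi.single 0 1)) 0
        simp [Matrix.mulVec_single] at h1
        show ((g.1.1 : SpecialLinearGroup (Fin 3) F).1 * (g'.1.1 : SpecialLinearGroup (Fin 3) F).1) 0 0 = _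
        rw [Matrix.mul_apply]
        refine Eq.trans ?_ (h.trans ?_)
        · simp [Matrix.mulVec, dotProduct]
        · simp [h1] }
  have hinj : Function.Injective φ := by
    intro g g' h
    obtain ⟨l, hl⟩ := (H3.mem_center_SU_iff hF (by omega) g.1).1 g.2
    obtain ⟨l', hl'⟩ := (H3.mem_center_SU_iff hF (by omega) g'.1).1 g'.2
    have h1 := congrFun (hl (Pi.single 0 1)) 0
    have h1' := congrFun (hl' (Pi.single 0 1)) 0
    simp [Matrix.mulVec_single] at h1 h1'
    have hll : l = l' := by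
      rw [← h1, ← h1']
      exact h
    refine Subtype.ext (Subtype.ext (Subtype.ext ?_))
    refine Matrix.ext_of_mulVec_single fun i => ?_
    rw [hl, hl', hll]
  haveI : IsCyclic (Subgroup.center (SU 3 F q)) := isCyclic_of_subgroup_isDomain φ hinj
  obtain ⟨z, hz⟩ := IsCyclic.exists_generator (α := Subgroup.center (SU 3 F q))
  refine ⟨z.1, le_antisymm (fun x hx => ?_) ((Subgroup.zpowers_le).2 z.2)⟩
  obtain ⟨n, hn⟩ := hz ⟨x, hx⟩
  exact ⟨n, by simpa using congrArg Subtype.val hn⟩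

theorem su3_both {q : ℕ} (hF : Fintype.card F = q ^ 2) (h2 : q ≠ 2) (h3 : q ≠ 3) (h5 : q ≠ 5) :
    (∃ rels : Finset (FreeGroup (Fin 3)), rels.card ≤ 23 ∧
      Nonempty (PresentedGroup (↑rels : Set (FreeGroup (Fin 3))) ≃* ↥(Cfsg.SU 3 F q))) ∧
    ∃ rels : Finset (FreeGroup (Fin 3)), rels.card ≤ 24 ∧
      Nonempty (PresentedGroup (↑rels : Set (FreeGroup (Fin 3))) ≃* Cfsg.PSU 3 F q) := by
  classical
  haveI : Fact (Fintype.card F = q ^ 2) := ⟨hF⟩
  have h4 : 4 ≤ q := by have := H3.two_le_q hF; omega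
  obtain ⟨R, hR, ⟨e⟩⟩ := mdl_pres (F := F) h4 h5
  obtain ⟨i⟩ := nonempty_equiv (F := F) (q := q)
  refine ⟨⟨R, hR.trans (by omega), ⟨e.trans i⟩⟩, ?_⟩
  obtain ⟨R', hR', e'⟩ := SLnPres.pres_quotient R (e.trans i) _ (center_cyclic hF)
  exact ⟨R', hR'.trans (by omega), e'⟩

end Cfsg.Agent.H81.SU3Pres
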