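import Cfsg.Agent.H81.SLPresField
import Cfsg.Agent.H3.Field

/-!
# `SU₃(q)` for the antidiagonal Hermitian form
-/

set_option autoImplicit false

namespace Cfsg.Agent.H81.SU3Pres

open Matrix
open scoped MatrixGroups

variable {F : Type*} [Field F] {q : ℕ}

/-- The antidiagonal form. -/
def aForm (q : ℕ) (v w : Fin 3 → F) : F := v 0 * w 2 ^ q + v 1 * w 1 ^ q + v 2 * w 0 ^ q

/-- The model group. -/
def Mdl (F : Type*) [Field F] (q : ℕ) : Subgroup SL(3, F) where
  carrier := {g | ∀ v w : Fin 3 → F,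
    aForm q ((g : Matrix (Fin 3) (Fin 3) F) *ᵥ v) ((g : Matrix (Fin 3) (Fin 3) F) *ᵥ w) = aForm q v w}
  one_mem' := fun v w => by simp
  mul_mem' {a b} ha hb := fun v w => by
    rw [Matrix.SpecialLinearGroup.coe_mul, ← Matrix.mulVec_mulVec, ← Matrix.mulVec_mulVec, ha, hb]
  inv_mem' {a} ha := fun v w => by
    conv_rhs => rw [← Matrix.one_mulVec v, ← Matrix.one_mulVec w, ← Matrix.SpecialLinearGroup.coe_one,
      ← mul_inv_cancel a, Matrix.SpecialLinearGroup.coe_mul, ← Matrix.mulVec_mulVec, ← Matrix.mulVec_mulVec]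
    rw [ha]

/-- The matrix of an element of the model. -/
def mx (g : Mdl F q) : Matrix (Fin 3) (Fin 3) F := (g : SL(3, F))

theorem mdl_ext {g g' : Mdl F q} (h : mx g = mx g') : g = g' := Subtype.ext (Subtype.ext h)

@[simp] theorem mx_mul (g g' : Mdl F q) : mx (g * g') = mx g * mx g' := rfl

@[simp] theorem mx_one : mx (1 : Mdl F q) = 1 := rfl

/-- The multiplier of the torus on the unipotent group. -/
def mu (q : ℕ) (c : F) : F := c ^ q * c ^ q / c

/-- The norm. -/
def nm (q : ℕ) (c : F) : F := c * c ^ q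

theorem mu_mul (c d : F) : mu q (c * d) = mu q c * mu q d := by
  unfold mu; rw [mul_pow, div_mul_div_comm]; ring

theorem mu_one : mu q (1 : F) = 1 := by simp [mu]

theorem mu_pow (c : F) (i : ℕ) : mu q (c ^ i) = mu q c ^ i := by
  induction i with
  | zero => simp [mu_one]
  | succ i ih => rw [pow_succ, pow_succ, mu_mul, ih]

theorem nm_mul (c d : F) : nm q (c * d) = nm q c * nm q d := by unfold nm; rw [mul_pow]; ring

theorem nm_one : nm q (1 : F) = 1 := by simp [nm]

theorem nm_pow (c : F) (i : ℕ) : nm q (c ^ i) = nm q c ^ i := by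
  induction i with
  | zero => simp [nm_one]
  | succ i ih => rw [pow_succ, pow_succ, nm_mul, ih]

theorem mu_ne {c : F} (hc : c ≠ 0) : mu q c ≠ 0 := by
  simp [mu, hc]

theorem nm_ne {c : F} (hc : c ≠ 0) : nm q c ≠ 0 := by
  simp [nm, hc]

theorem mu_fix {c : F} (hc : c ^ q = c) : mu q c = c := by
  rcases eq_or_ne c 0 with h | h
  · subst h; simp [mu]
  · rw [mu, hc, mul_div_assoc, div_self h, mul_one]

theorem nm_fix {c : F} (hc : c ^ q = c) : nm q c = c * c := by rw [nm, hc]

variable [Fintype F] [hq : Fact (Fintype.card F = q ^ 2)]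
include hq

theorem pq_pq (x : F) : (x ^ q) ^ q = x := H3.pow_q_pow_q hq.out x

theorem pq_add (x y : F) : (x + y) ^ q = x ^ q + y ^ q := H3.add_pow_q hq.out x y

theorem q_ne : q ≠ 0 := by have := H3.two_le_q hq.out; omega

theorem pq_zero : (0 : F) ^ q = 0 := zero_pow (q_ne (F := F))

theorem pq_neg (x : F) : (-x) ^ q = -x ^ q := map_neg (H3.conjQ hq.out) x

theorem pq_sub (x y : F) : (x - y) ^ q = x ^ q - y ^ q := map_sub (H3.conjQ hq.out) x y

theorem nm_pq (c : F) : nm q c ^ q = nm q c := by rw [nm, mul_pow, pq_pq, mul_comm]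

/-- The condition on the parameters of a unipotent element. -/
def Tz (q : ℕ) (a b : F) : Prop := b + b ^ q + a * a ^ q = 0

theorem Tz.mul {a b a' b' : F} (h : Tz q a b) (h' : Tz q a' b') :
    Tz q (a + a') (b + b' - a ^ q * a') := by
  unfold Tz at *
  rw [pq_sub, mul_pow, pq_pq, pq_add, pq_add]
  linear_combination h + h'

theorem Tz.neg {a b : F} (h : Tz q a b) : Tz q (-a) (b ^ q) := by
  unfold Tz at *
  rw [pq_pq, pq_neg]
  linear_combination h

theorem Tz.zero : Tz q (0 : F) 0 := by unfold Tz; rw [pq_zero]; ring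

theorem Tz.conj {a b c : F} (h : Tz q a b) (hc : c ≠ 0) : Tz q (mu q c * a) (nm q c * b) := by
  unfold Tz at *
  have e : mu q c * mu q c ^ q = nm q c := by
    unfold mu nm
    rw [div_pow, mul_pow, pq_pq]
    have : c ^ q ≠ 0 := pow_ne_zero _ hc
    field_simp
  rw [mul_pow, mul_pow, nm_pq]
  linear_combination nm q c * h + a * a ^ q * e

/-- The unipotent element. -/
def uM (a b : F) (h : Tz q a b) : Mdl F q :=
  ⟨⟨!![1, -a ^ q, b; 0, 1, a; 0, 0, 1], by simp [Matrix.det_fin_three]⟩, fun v w => by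
    unfold Tz at h
    simp [aForm, Matrix.mulVec, dotProduct, Fin.sum_univ_three, pq_add, mul_pow, pq_neg, pq_pq]
    linear_combination (v 2 * w 2 ^ q) * h⟩

@[simp] theorem mx_uM (a b : F) (h : Tz q a b) : mx (uM a b h) = !![1, -a ^ q, b; 0, 1, a; 0, 0, 1] := rfl

theorem uM_eq {a b a' b' : F} {h : Tz q a b} {h' : Tz q a' b'} (ha : a = a') (hb : b = b') :
    uM a b h = uM a' b' h' := by subst ha hb; rfl

theorem uM_inj {a b a' b' : F} {h : Tz q a b} {h' : Tz q a' b'} (e : uM a b h = uM a' b' h') :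
    a = a' ∧ b = b' := by
  have e' := congrArg mx e
  simp only [mx_uM] at e'
  exact ⟨by simpa using congrArg (fun M => M 1 2) e', by simpa using congrArg (fun M => M 0 2) e'⟩

theorem uM_mul (a b a' b' : F) (h : Tz q a b) (h' : Tz q a' b') :
    uM a b h * uM a' b' h' = uM (a + a') (b + b' - a ^ q * a') (h.mul h') := by
  apply mdl_ext
  simp only [mx_mul, mx_uM, pq_add]
  ext i j
  fin_cases i <;> fin_cases j <;> simp [Matrix.mul_apply, Fin.sum_univ_three] <;> ring

theorem uM_zero : uM (0 : F) 0 (Tz.zero (F := F) (q := q)) = 1 := by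
  apply mdl_ext
  simp only [mx_uM, mx_one, pq_zero]
  ext i j
  fin_cases i <;> fin_cases j <;> simp

theorem uM_inv (a b : F) (h : Tz q a b) : (uM a b h)⁻¹ = uM (-a) (b ^ q) h.neg := by
  refine inv_eq_of_mul_eq_one_right ?_
  rw [uM_mul, ← uM_zero (F := F) (q := q)]
  refine uM_eq (add_neg_cancel a) ?_
  unfold Tz at h
  linear_combination h

/-- The torus. -/
def hM : Fˣ →* Mdl F q where
  toFun c := ⟨⟨!![(c : F), 0, 0; 0, (c : F) ^ q / c, 0; 0, 0, 1 / (c : F) ^ q],
      by simp [Matrix.det_fin_three]; field_simp⟩, fun v w => by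
    simp [aForm, Matrix.mulVec, dotProduct, Fin.sum_univ_three, mul_pow, div_pow, pq_pq]
    field_simp⟩
  map_one' := by
    apply mdl_ext
    ext i j
    fin_cases i <;> fin_cases j <;> simp [mx]
  map_mul' c d := by
    apply mdl_ext
    simp only [mx_mul]
    simp only [mx]
    ext i j
    fin_cases i <;> fin_cases j <;> simp [Matrix.mul_apply, Fin.sum_univ_three, mul_pow] <;> field_simp

@[simp] theorem mx_hM (c : Fˣ) :
    mx (hM c : Mdl F q) = !![(c : F), 0, 0; 0, (c : F) ^ q / c, 0; 0, 0, 1 / (c : F) ^ q] := rfl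

theorem hM_inj : Function.Injective (hM : Fˣ → Mdl F q) := fun c d e => by
  have e' := congrArg mx e
  simp only [mx_hM] at e'
  exact Units.ext (by simpa using congrArg (fun M => M 0 0) e')

theorem hM_uM (c : Fˣ) (a b : F) (h : Tz q a b) :
    hM c * uM a b h * (hM c)⁻¹ = uM (mu q (c : F) * a) (nm q (c : F) * b) (h.conj c.ne_zero) := by
  rw [mul_inv_eq_iff_eq_mul]
  apply mdl_ext
  simp only [mx_mul, mx_uM, mx_hM]
  have hc := c.ne_zero
  have hcq : (c : F) ^ q ≠ 0 := pow_ne_zero _ hc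
  ext i j
  fin_cases i <;> fin_cases j <;>
    simp [Matrix.mul_apply, Fin.sum_univ_three, mu, nm, mul_pow, div_pow, pq_pq] <;> field_simp

/-- The longest Weyl element. -/
def wM : Mdl F q :=
  ⟨⟨!![0, 0, 1; 0, -1, 0; 1, 0, 0], by simp [Matrix.det_fin_three]⟩, fun v w => by
    simp [aForm, Matrix.mulVec, dotProduct, Fin.sum_univ_three, pq_neg]
    ring⟩

@[simp] theorem mx_wM : mx (wM : Mdl F q) = !![0, 0, 1; 0, -1, 0; 1, 0, 0] := rfl

theorem Tz.div_left {a b : F} (h : Tz q a b) (hb : b ≠ 0) : Tz q (-(a / b)) (1 / b) := by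
  unfold Tz at *
  have : b ^ q ≠ 0 := pow_ne_zero _ hb
  rw [pq_neg, div_pow, div_pow, one_pow]
  field_simp
  linear_combination h

theorem Tz.div_right {a b : F} (h : Tz q a b) (hb : b ≠ 0) : Tz q (-(a / b ^ q)) (1 / b) := by
  unfold Tz at *
  have : b ^ q ≠ 0 := pow_ne_zero _ hb
  rw [pq_neg, div_pow, div_pow, pq_pq, one_pow]
  field_simp
  linear_combination h

theorem Tz.b_ne {a b : F} (h : Tz q a b) (hne : ¬(a = 0 ∧ b = 0)) : b ≠ 0 := by
  rintro rfl
  unfold Tz at h
  rw [pq_zero, add_zero, zero_add, mul_eq_zero] at h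
  rcases h with h | h
  · exact hne ⟨h, rfl⟩
  · exact hne ⟨eq_zero_of_pow_eq_zero h, rfl⟩

/-- The rank one identity. -/
theorem cell_id (a b : F) (h : Tz q a b) (hb : b ≠ 0) :
    wM * uM a b h * wM = uM (-(a / b)) (1 / b) (h.div_left hb) *
      hM (Units.mk0 (b ^ q) (pow_ne_zero _ hb))⁻¹ * wM * uM (-(a / b ^ q)) (1 / b) (h.div_right hb) := by
  apply mdl_ext
  have hbq : b ^ q ≠ 0 := pow_ne_zero _ hb
  simp only [mx_mul, mx_uM, mx_hM, mx_wM, Units.val_inv_eq_inv_val, Units.val_mk0]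
  unfold Tz at h
  ext i j
  fin_cases i <;> fin_cases j <;>
    simp [Matrix.mul_apply, Fin.sum_univ_three, pq_neg, div_pow, pq_pq, one_div, inv_pow] <;>
    field_simp <;>
    first | ring1 | linear_combination h | linear_combination -h

theorem wM_sq : (wM : Mdl F q) * wM = 1 := by
  apply mdl_ext
  simp only [mx_mul, mx_wM, mx_one]
  ext i j
  fin_cases i <;> fin_cases j <;> simp [Matrix.mul_apply, Fin.sum_univ_three]

theorem wM_hM (c : Fˣ) : (wM : Mdl F q) * hM c = hM (Units.mk0 ((c : F) ^ q) (pow_ne_zero _ c.ne_zero))⁻¹ * wM := by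
  apply mdl_ext
  simp only [mx_mul, mx_hM, mx_wM, Units.val_inv_eq_inv_val, Units.val_mk0]
  have hc := c.ne_zero
  ext i j
  fin_cases i <;> fin_cases j <;>
    simp [Matrix.mul_apply, Fin.sum_univ_three, inv_pow, pq_pq] <;> field_simp

/-- Uniqueness in the big cell. -/
theorem cell_unique {a b a' b' x y x' y' : F} {h : Tz q a b} {h' : Tz q a' b'} {hx : Tz q x y}
    {hx' : Tz q x' y'} {c c' : Fˣ}
    (e : uM a b h * hM c * wM * uM x y hx = uM a' b' h' * hM c' * wM * uM x' y' hx') :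
    a = a' ∧ b = b' ∧ c = c' ∧ x = x' ∧ y = y' := by
  have e' := congrArg mx e
  simp only [mx_mul, mx_uM, mx_hM, mx_wM] at e'
  have e0 := congrArg (fun M => M 0 0) e'
  have e1 := congrArg (fun M => M 1 0) e'
  have e2 := congrArg (fun M => M 2 0) e'
  simp [Matrix.mul_apply, Fin.sum_univ_three] at e0 e1 e2
  have hc : c = c' := by
    have : (c : F) ^ q = (c' : F) ^ q := e2
    exact Units.ext (by rw [← pq_pq (q := q) (c : F), this, pq_pq])
  subst hc
  have ha : a = a' := mul_right_cancel₀ (inv_ne_zero (pow_ne_zero _ c.ne_zero)) e1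
  have hb : b = b' := mul_right_cancel₀ (inv_ne_zero (pow_ne_zero _ c.ne_zero)) e0
  subst ha hb
  obtain ⟨h1, h2⟩ := uM_inj (mul_left_cancel e)
  exact ⟨rfl, rfl, rfl, h1, h2⟩

/-- The big cell is off the Borel subgroup. -/
theorem cell_ne {a b x y a' b' : F} {h : Tz q a b} {h' : Tz q a' b'} {hx : Tz q x y} {c c' : Fˣ} :
    uM a b h * hM c * wM * uM x y hx ≠ uM a' b' h' * hM c' := fun e => by
  have e' := congrArg (fun g => mx g 2 0) e
  simp [Matrix.mul_apply, Fin.sum_univ_three] at e'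

theorem borel_unique {a b a' b' : F} {h : Tz q a b} {h' : Tz q a' b'} {c c' : Fˣ}
    (e : uM a b h * hM c = uM a' b' h' * hM c') : a = a' ∧ b = b' ∧ c = c' := by
  have e' := congrArg (fun g => mx g 0 0) e
  simp [Matrix.mul_apply, Fin.sum_univ_three] at e'
  obtain rfl : c = c' := Units.ext e'
  exact ⟨(uM_inj (mul_right_cancel e)).1, (uM_inj (mul_right_cancel e)).2, rfl⟩

/-- An element mapping the first basis vector to a multiple of itself is in the Borel subgroup. -/
theorem borel_form (g : Mdl F q) (hg : mx g 2 0 = 0) :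
    ∃ (a b : F) (h : Tz q a b) (c : Fˣ), g = uM a b h * hM c := by
  have key : ∀ i j, mx g 0 i * mx g 2 j ^ q + mx g 1 i * mx g 1 j ^ q + mx g 2 i * mx g 0 j ^ q =
      aForm q (Pi.single i (1 : F)) (Pi.single j 1) := fun i j => by
    have := g.2 (Pi.single i 1) (Pi.single j 1)
    simpa [aForm, mx] using this
  have k00 := key 0 0
  have k01 := key 0 1
  have k02 := key 0 2
  have k11 := key 1 1
  have k12 := key 1 2
  have k22 := key 2 2
  simp [aForm, hg, pq_zero] at k00 k01 k02 k11 k12 k22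
  have h10 : mx g 1 0 = 0 := by
    rcases k00 with h | h
    · exact h
    · exact h.1
  simp [h10, pq_zero] at k01 k02
  have h0 : mx g 0 0 ≠ 0 := fun h => by rw [h, zero_mul] at k02; exact zero_ne_one k02
  have h21 : mx g 2 1 = 0 := (k01.resolve_left h0).1
  simp [h21, pq_zero] at k11 k12
  have hdet : mx g 0 0 * (mx g 1 1 * mx g 2 2) = 1 := by
    have := (g : SL(3, F)).2
    rw [Matrix.det_fin_three] at this
    simp only [mx] at hg h10 h21 ⊢
    simp [hg, h10, h21] at this
    linear_combination this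
  set c := mx g 0 0 with hc
  have hcq : c ^ q ≠ 0 := pow_ne_zero _ h0
  have h22 : mx g 2 2 = 1 / c ^ q := by
    rw [eq_div_iff hcq]
    have := congrArg (· ^ q) k02
    simp only [mul_pow, pq_pq, one_pow] at this
    linear_combination this
  have h11 : mx g 1 1 = c ^ q / c := by
    rw [h22] at hdet
    field_simp at hdet ⊢
    linear_combination hdet
  refine ⟨mx g 1 2 * c ^ q, mx g 0 2 * c ^ q, ?_, Units.mk0 c h0, ?_⟩
  · unfold Tz
    rw [h22, div_pow, one_pow, pq_pq] at k22
    simp only [mul_pow, pq_pq]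
    field_simp at k22
    linear_combination k22
  · apply mdl_ext
    simp only [mx_mul, mx_uM, mx_hM, Units.val_mk0]
    have e01 : mx g 0 1 = -((mx g 1 2 * c ^ q) ^ q) * (c ^ q / c) := by
      rw [h22, h11, div_pow, one_pow, pq_pq] at k12
      rw [mul_pow, pq_pq]
      field_simp at k12 ⊢
      linear_combination k12
    ext i j
    fin_cases i <;> fin_cases j <;>
      simp [Matrix.mul_apply, Fin.sum_univ_three, hg, h10, h21, h22, h11, e01, hcq] <;>
      first | rfl | (field_simp)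

theorem decompose (g : Mdl F q) :
    (∃ (a b : F) (h : Tz q a b) (c : Fˣ), g = uM a b h * hM c) ∨
    ∃ (a b : F) (h : Tz q a b) (x y : F) (hx : Tz q x y) (c : Fˣ),
      g = uM a b h * wM * (uM x y hx * hM c) := by
  rcases eq_or_ne (mx g 2 0) 0 with hg | hg
  · exact Or.inl (borel_form g hg)
  · right
    set z := mx g 2 0 with hz
    have hzq : z ^ q ≠ 0 := pow_ne_zero _ hg
    have k00 := g.2 (Pi.single 0 1) (Pi.single 0 1)
    simp [aForm, pq_zero] at k00
    have h : Tz q (mx g 1 0 / z) (mx g 0 0 / z) := by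
      unfold Tz
      rw [div_pow, div_pow]
      field_simp
      simp only [mx] at hz ⊢
      rw [hz]
      linear_combination k00
    set g' := wM * (uM _ _ h)⁻¹ * g with hg'
    have h20 : mx g' 2 0 = 0 := by
      rw [hg', uM_inv]
      simp [Matrix.mul_apply, Fin.sum_univ_three, pq_neg, div_pow, ← hz]
      simp only [mx] at hz ⊢
      field_simp
      rw [hz]
      linear_combination k00
    obtain ⟨x, y, hx, c, e⟩ := borel_form g' h20
    refine ⟨_, _, h, x, y, hx, c, ?_⟩
    rw [← e, hg']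
    rw [mul_assoc (uM _ _ h), ← mul_assoc (wM : Mdl F q), ← mul_assoc (wM : Mdl F q), wM_sq, one_mul,
      mul_inv_cancel_left]

/-- The fixed field. -/
abbrev Fix (F : Type*) [Field F] [Fintype F] (q : ℕ) [hq : Fact (Fintype.card F = q ^ 2)] : Subfield F :=
  (H3.conjQ hq.out).eqLocusField (RingHom.id F)

theorem mem_fix {x : F} : x ∈ Fix F q ↔ x ^ q = x := Iff.rfl

theorem fix_pq (x : Fix F q) : (x : F) ^ q = x := x.2

theorem card_fix : Nat.card (Fix F q) = q :=
  (Nat.card_congr (Equiv.subtypeEquivRight fun x => mem_fix)).trans (H3.card_fixed hq.out)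

/-- The embedding of `SL₂` of the fixed field. -/
def slEmb (δ : F) (hδ0 : δ ≠ 0) (hδ : δ ^ q = -δ) : SL(2, Fix F q) →* Mdl F q where
  toFun g := ⟨⟨!![((g 0 0 : Fix F q) : F), 0, δ * (g 0 1 : Fix F q); 0, 1, 0;
      ((g 1 0 : Fix F q) : F) / δ, 0, ((g 1 1 : Fix F q) : F)], by
    have := congrArg (fun z : Fix F q => (z : F)) (H92.sl2_det g)
    simp only [Subfield.coe_sub, Subfield.coe_mul, Subfield.coe_one] at this
    simp [Matrix.det_fin_three]
    field_simp
    linear_combination this⟩, fun v w => by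
    have := congrArg (fun z : Fix F q => (z : F)) (H92.sl2_det g)
    simp only [Subfield.coe_sub, Subfield.coe_mul, Subfield.coe_one] at this
    simp [aForm, Matrix.mulVec, dotProduct, Fin.sum_univ_three, pq_add, mul_pow, div_pow, fix_pq, hδ,
      pq_neg]
    field_simp
    linear_combination (δ * (v 0 * w 2 ^ q + v 2 * w 0 ^ q)) * this⟩
  map_one' := by
    apply mdl_ext
    ext i j
    fin_cases i <;> fin_cases j <;> simp [mx]
  map_mul' g g' := by
    apply mdl_ext
    simp only [mx_mul]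
    simp only [mx, H92.sl2_mul_apply, Subfield.coe_add, Subfield.coe_mul]
    ext i j
    fin_cases i <;> fin_cases j <;> simp [Matrix.mul_apply, Fin.sum_univ_three] <;> field_simp

theorem Tz.trace_zero {δ : F} (hδ : δ ^ q = -δ) (s : Fix F q) : Tz q 0 (δ * s) := by
  unfold Tz; rw [mul_pow, hδ, fix_pq, pq_zero]; ring

theorem slEmb_sx (δ : F) (hδ0 : δ ≠ 0) (hδ : δ ^ q = -δ) (s : Fix F q) :
    slEmb δ hδ0 hδ (H92.sx s) = uM 0 (δ * s) (Tz.trace_zero hδ s) := by
  apply mdl_ext
  simp only [mx_uM, pq_zero]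
  ext i j
  fin_cases i <;> fin_cases j <;> simp [mx, slEmb]

theorem slEmb_hm (δ : F) (hδ0 : δ ≠ 0) (hδ : δ ^ q = -δ) (a : Fix F q) (ha : a ≠ 0) :
    slEmb δ hδ0 hδ (SLPres.hm a ha) = hM (Units.mk0 (a : F) (by simpa using ha)) := by
  apply mdl_ext
  simp only [mx_hM]
  have : (a : F) ≠ 0 := by simpa using ha
  ext i j
  fin_cases i <;> fin_cases j <;> simp [mx, slEmb, fix_pq, this]

theorem slEmb_sw (δ : F) (hδ0 : δ ≠ 0) (hδ : δ ^ q = -δ) :
    slEmb δ hδ0 hδ H92.sw = wM * hM (Units.mk0 (-δ) (neg_ne_zero.2 hδ0))⁻¹ := by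
  apply mdl_ext
  simp only [mx_mul, mx_hM, mx_wM, Units.val_inv_eq_inv_val, Units.val_mk0]
  ext i j
  fin_cases i <;> fin_cases j <;>
    simp [mx, slEmb, Matrix.mul_apply, Fin.sum_univ_three, pq_neg, hδ, hδ0, neg_div, inv_pow]

end Cfsg.Agent.H81.SU3Pres
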